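import Cfsg.Agent.Lib.Local.Misc3

/-! Control of Sylow intersections and fusion. -/

namespace CfsgLib.Local

open Subgroup Cfsg
open scoped Pointwise commutatorElement

variable {G : Type*} [Group G] [Finite G] {p : ℕ} [Fact p.Prime]

theorem coe_smul_eq (y : G) (S : Sylow p G) :
    ((y • S : Sylow p G) : Subgroup G) = subgroupConjRight y⁻¹ (S : Subgroup G) := by
  ext x
  rw [CfsgLib.Trans.mem_sylow_smul, mem_subgroupConjRight, inv_inv]

theorem eq_smul_of_conjRight {x : G} {A B : Sylow p G} (h : subgroupConjRight x (B : Subgroup G) = (A : Subgroup G)) :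
    B = x • A := by
  apply Sylow.ext
  ext z
  rw [CfsgLib.Trans.mem_sylow_smul, ← h, mem_subgroupConjRight]
  have : x * (x⁻¹ * z * x) * x⁻¹ = z := by group
  rw [this]

theorem conjRight_eq_of_smul {x : G} {A : Sylow p G} :
    subgroupConjRight x ((x • A : Sylow p G) : Subgroup G) = (A : Subgroup G) := by
  ext z
  rw [mem_subgroupConjRight, CfsgLib.Trans.mem_sylow_smul]
  have : x⁻¹ * (x * z * x⁻¹) * x = z := by group
  rw [this]

theorem subgroupConjRight_mul (a b : G) (X : Subgroup G) :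
    subgroupConjRight b (subgroupConjRight a X) = subgroupConjRight (a * b) X := by
  ext z
  simp only [mem_subgroupConjRight]
  have : a * (b * z * b⁻¹) * a⁻¹ = a * b * z * (a * b)⁻¹ := by group
  rw [this]

theorem subgroupConjRight_one (X : Subgroup G) : subgroupConjRight (1 : G) X = X := by
  ext z
  simp [mem_subgroupConjRight]

theorem sylow_map_exists (φ : MulAut G) {A X : Subgroup G}
    (h : ∃ P : Sylow p ↥X, (P : Subgroup ↥X).map X.subtype = A ⊓ X) :
    ∃ P' : Sylow p ↥(X.map φ.toMonoidHom), (P' : Subgroup ↥(X.map φ.toMonoidHom)).map (X.map φ.toMonoidHom).subtype =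
      A.map φ.toMonoidHom ⊓ X.map φ.toMonoidHom := by
  obtain ⟨P, hP⟩ := h
  let e : ↥X ≃* ↥(X.map φ.toMonoidHom) := φ.subgroupMap X
  have hsurj : Function.Surjective e.toMonoidHom := e.surjective
  refine ⟨P.mapSurjective hsurj, ?_⟩
  rw [Sylow.coe_mapSurjective]
  have h1 : (((P : Subgroup ↥X).map e.toMonoidHom).map (X.map φ.toMonoidHom).subtype) =
      ((P : Subgroup ↥X).map X.subtype).map φ.toMonoidHom := by
    ext z
    simp only [Subgroup.mem_map]
    constructor
    · rintro ⟨_, ⟨a, ha, rfl⟩, rfl⟩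
      exact ⟨a, ⟨a, ha, rfl⟩, rfl⟩
    · rintro ⟨_, ⟨a, ha, rfl⟩, rfl⟩
      exact ⟨e.toMonoidHom a, ⟨a, ha, rfl⟩, rfl⟩
  refine h1.trans ?_
  rw [hP, Subgroup.map_inf _ _ _ φ.injective]

theorem sylowMembers_conj {𝓕 : Set (Subgroup G)} (h𝓕 : IsNormalSet 𝓕) {A X : Subgroup G}
    (hX : X ∈ sylowMembers p 𝓕 A) (y : G) :
    subgroupConjRight y X ∈ sylowMembers p 𝓕 (subgroupConjRight y A) := by
  obtain ⟨hX𝓕, hP⟩ := hX
  exact ⟨h𝓕 X hX𝓕 y, sylow_map_exists (MulAut.conj y⁻¹) hP⟩

/-- `S2955`. -/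
theorem generated_of_control (𝓕 : Set (Subgroup G)) (h𝓕 : IsNormalSet 𝓕) (hc : ControlsSylowIntersections p 𝓕)
    (hconn : IsSylowChainConnected p G) (S : Sylow p G) :
    (⨆ X ∈ sylowMembers p 𝓕 (S : Subgroup G), X) ⊔ normalizer ((S : Subgroup G) : Set G) = ⊤ := by
  set H := (⨆ X ∈ sylowMembers p 𝓕 (S : Subgroup G), X) ⊔ normalizer ((S : Subgroup G) : Set G) with hH
  have hkey : ∀ y ∈ H, ∀ X ∈ sylowMembers p 𝓕 ((y • S : Sylow p G) : Subgroup G), ∀ x ∈ X, x ∈ H := by
    intro y hy X hX x hx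
    have h1 := sylowMembers_conj h𝓕 hX y
    rw [conjRight_eq_of_smul] at h1
    have h2 : subgroupConjRight y X ≤ H :=
      le_trans (le_iSup₂_of_le _ h1 le_rfl) le_sup_left
    have h3 : y⁻¹ * x * y ∈ subgroupConjRight y X := by
      rw [mem_subgroupConjRight]
      have : y * (y⁻¹ * x * y) * y⁻¹ = x := by group
      rwa [this]
    have h4 := H.mul_mem (H.mul_mem hy (h2 h3)) (H.inv_mem hy)
    have e : y * (y⁻¹ * x * y) * y⁻¹ = x := by group
    rwa [e] at h4
  have hstep : ∀ T T' : Sylow p G, (∃ y ∈ H, T = y • S) → SylowAdj p G T T' → ∃ y ∈ H, T' = y • S := by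
    intro T T' hT hadj
    obtain ⟨n, c, X, x, h0, hl, hall⟩ := hc T T' hadj.1 hadj.2
    have hi : ∀ i : Fin (n + 1), ∃ y ∈ H, c i = y • S := by
      intro i
      induction i using Fin.induction with
      | zero => rw [h0]; exact hT
      | succ i ih =>
        obtain ⟨y, hy, hyc⟩ := ih
        obtain ⟨h1, -, h3, h4, -⟩ := hall i
        rw [hyc] at h1
        have hxH := hkey y hy _ h1 _ h3
        refine ⟨x i * y, H.mul_mem hxH hy, ?_⟩
        rw [eq_smul_of_conjRight h4, hyc, mul_smul]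
    rw [← hl]
    exact hi _
  have hall : ∀ T : Sylow p G, ∃ y ∈ H, T = y • S := by
    intro T
    have h1 := (chainConnected_iff.mp hconn) S T
    induction h1 with
    | refl => exact ⟨1, H.one_mem, (one_smul _ _).symm⟩
    | tail _ h2 ih => exact hstep _ _ ih h2
  rw [eq_top_iff]
  intro g _
  obtain ⟨y, hy, e⟩ := hall (g • S)
  have h1 : y⁻¹ * g ∈ normalizer ((S : Subgroup G) : Set G) := by
    have h2 : (y⁻¹ * g) • S = S := by rw [mul_smul, e, inv_smul_smul]
    exact Sylow.smul_eq_iff_mem_normalizer.mp h2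
  have h3 := H.mul_mem hy (Subgroup.mem_sup_right h1 : y⁻¹ * g ∈ H)
  simpa using h3

theorem take_ofFn_prod {n : ℕ} (y : Fin n → G) (z : ℕ → G) (h0 : z 0 = 1)
    (hz : ∀ i : Fin n, z (i.val + 1) = z i.val * y i) :
    ∀ k, k ≤ n → ((List.ofFn y).take k).prod = z k := by
  intro k hk
  induction k with
  | zero => simp [h0]
  | succ k ih =>
    have hlt : k < (List.ofFn y).length := by simpa using hk
    rw [List.prod_take_succ _ _ hlt, ih (by omega), hz ⟨k, by omega⟩]
    simp

/-- From control to strong control. -/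
theorem stronglyControls_of_controls (𝓕 : Set (Subgroup G)) (h𝓕 : IsNormalSet 𝓕)
    (hc : ControlsSylowIntersections p 𝓕) : FamilyStronglyControlsFusion p 𝓕 := by
  intro S A g hAS hA hAg
  have hAT : A ⊆ ((g • S : Sylow p G) : Subgroup G) := by
    intro a ha
    rw [SetLike.mem_coe, CfsgLib.Trans.mem_sylow_smul]
    exact hAg ⟨a, ha, rfl⟩
  by_cases hST : S = g • S
  · refine ⟨0, Fin.elim0, Fin.elim0, g, ?_, fun i => i.elim0, by simp, fun i => i.elim0⟩
    exact Sylow.smul_eq_iff_mem_normalizer.mp hST.symm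
  · have hne : (S : Subgroup G) ⊓ ((g • S : Sylow p G) : Subgroup G) ≠ ⊥ := by
      obtain ⟨a, ha, ha1⟩ := hA
      intro hb
      have : a ∈ (S : Subgroup G) ⊓ ((g • S : Sylow p G) : Subgroup G) :=
        Subgroup.mem_inf.mpr ⟨hAS ha, hAT ha⟩
      rw [hb, Subgroup.mem_bot] at this
      exact ha1 this
    obtain ⟨n, c, X, x, h0, hl, hall⟩ := hc S (g • S) hST hne
    -- partial products
    let z : ℕ → G := fun k => Nat.rec 1 (fun k zk => (if h : k < n then x ⟨k, h⟩ else 1) * zk) k
    have hz0 : z 0 = 1 := rfl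
    have hzs : ∀ i : Fin n, z (i.val + 1) = x i * z i.val := by
      intro i
      show (if h : i.val < n then x ⟨i.val, h⟩ else 1) * z i.val = _
      rw [dif_pos i.2]
    have hc_z : ∀ i : Fin (n + 1), c i = z i.val • S := by
      intro i
      induction i using Fin.induction with
      | zero => rw [h0]; show S = z 0 • S; rw [hz0, one_smul]
      | succ i ih =>
        obtain ⟨-, -, -, h4, -⟩ := hall i
        rw [eq_smul_of_conjRight h4, ih]
        show x i • z (i.val) • S = z (i.val + 1) • S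
        rw [hzs i, mul_smul]
    set y : Fin n → G := fun i => (z i.val)⁻¹ * x i * z i.val with hy
    set Y : Fin n → Subgroup G := fun i => subgroupConjRight (z i.val) (X i) with hY
    have hprod : ∀ i : Fin n, z (i.val + 1) = z i.val * y i := by
      intro i
      rw [hzs i, hy]; group
    have htake := take_ofFn_prod y z hz0 hprod
    have hzn : ((List.ofFn y)).prod = z n := by
      have := htake n le_rfl
      rwa [show (List.ofFn y).take n = List.ofFn y from List.take_of_length_le (by simp)] at this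
    have hlast : z n • S = g • S := by
      have := hc_z (Fin.last n)
      rw [hl] at this
      simpa using this.symm
    refine ⟨n, Y, y, (z n)⁻¹ * g, ?_, ?_, ?_, ?_⟩
    · apply Sylow.smul_eq_iff_mem_normalizer.mp
      rw [mul_smul, ← hlast, inv_smul_smul]
    · intro i
      obtain ⟨h1, -, h3, -, -⟩ := hall i
      constructor
      · have h5 := sylowMembers_conj h𝓕 h1 (z i.val)
        rw [show (c i.castSucc : Sylow p G) = z i.val • S by simpa using hc_z i.castSucc, conjRight_eq_of_smul] at h5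
        exact h5
      · rw [hY, mem_subgroupConjRight]
        show z i.val * ((z i.val)⁻¹ * x i * z i.val) * (z i.val)⁻¹ ∈ X i
        have e : z i.val * ((z i.val)⁻¹ * x i * z i.val) * (z i.val)⁻¹ = x i := by group
        rwa [e]
    · rw [hzn]; group
    · intro i a ha
      obtain ⟨a', ha', rfl⟩ := ha
      have htk := htake (i.val + 1) (by omega)
      rw [htk]
      obtain ⟨-, -, h3, -, h5⟩ := hall i
      have hmem : a' ∈ (S : Subgroup G) ⊓ ((g • S : Sylow p G) : Subgroup G) :=
        Subgroup.mem_inf.mpr ⟨hAS ha', hAT ha'⟩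
      obtain ⟨h6, h7⟩ := Subgroup.mem_inf.mp (h5 hmem)
      constructor
      · have h8 : (c i.succ : Sylow p G) = z (i.val + 1) • S := by simpa using hc_z i.succ
        rw [h8, CfsgLib.Trans.mem_sylow_smul] at h6
        exact h6
      · show (z (i.val + 1))⁻¹ * a' * z (i.val + 1) ∈ Y i
        rw [hY, mem_subgroupConjRight, hzs i]
        have e : z i.val * ((x i * z i.val)⁻¹ * a' * (x i * z i.val)) * (z i.val)⁻¹ = (x i)⁻¹ * a' * x i := by group
        rw [e]
        exact (X i).mul_mem ((X i).mul_mem ((X i).inv_mem h3) h7) h3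

/-- From strong control to control. -/
theorem controls_of_stronglyControls (𝓕 : Set (Subgroup G)) (h𝓕 : IsNormalSet 𝓕)
    (hs : FamilyStronglyControlsFusion p 𝓕) : ControlsSylowIntersections p 𝓕 := by
  intro S T hST hne
  obtain ⟨g, hg⟩ := MulAction.exists_smul_eq G S T
  set A : Set G := (((S : Subgroup G) ⊓ (T : Subgroup G) : Subgroup G) : Set G) with hA
  have hAS : A ⊆ (S : Set G) := fun a ha => (Subgroup.mem_inf.mp ha).1
  have hA1 : ∃ a ∈ A, a ≠ 1 := by
    obtain ⟨⟨a, ha⟩, ha1⟩ := Subgroup.ne_bot_iff_exists_ne_one.mp hne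
    exact ⟨a, ha, fun e => ha1 (Subtype.ext e)⟩
  have hAg : conjRight g A ⊆ (S : Set G) := by
    rintro _ ⟨a, ha, rfl⟩
    have h1 := (Subgroup.mem_inf.mp ha).2
    rw [← hg, CfsgLib.Trans.mem_sylow_smul] at h1
    exact h1
  obtain ⟨n, Y, y, y₀, hy₀, hY, hgeq, hAll⟩ := hs S A g hAS hA1 hAg
  let z : ℕ → G := fun k => ((List.ofFn y).take k).prod
  have hz0 : z 0 = 1 := by simp [z]
  have hzs : ∀ i : Fin n, z (i.val + 1) = z i.val * y i := by
    intro i
    have hlt : i.val < (List.ofFn y).length := by simp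
    show ((List.ofFn y).take (i.val + 1)).prod = _
    rw [List.prod_take_succ _ _ hlt]
    simp [z]
  have hzn : z n = (List.ofFn y).prod := by
    show ((List.ofFn y).take n).prod = _
    rw [List.take_of_length_le (by simp)]
  have hTz : z n • S = T := by
    rw [← hg, hgeq, mul_smul, ← hzn, Sylow.smul_eq_iff_mem_normalizer.mpr hy₀]
  refine ⟨n, fun i => z i.val • S, fun i => subgroupConjRight (z i.val)⁻¹ (Y i),
    fun i => z i.val * y i * (z i.val)⁻¹, ?_, ?_, fun i => ?_⟩
  · show z 0 • S = S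
    rw [hz0, one_smul]
  · exact hTz
  · obtain ⟨hY1, hY2⟩ := hY i
    have hX_succ : subgroupConjRight (z (i.val + 1))⁻¹ (Y i) = subgroupConjRight (z i.val)⁻¹ (Y i) := by
      ext w
      rw [mem_subgroupConjRight, mem_subgroupConjRight, hzs i, inv_inv, inv_inv]
      have e : (z i.val * y i)⁻¹ * w * (z i.val * y i) = (y i)⁻¹ * ((z i.val)⁻¹ * w * z i.val) * y i := by group
      rw [e]
      constructor
      · intro h
        have := (Y i).mul_mem ((Y i).mul_mem hY2 h) ((Y i).inv_mem hY2)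
        simpa [mul_assoc] using this
      · intro h
        exact (Y i).mul_mem ((Y i).mul_mem ((Y i).inv_mem hY2) h) hY2
    have hcoe : ∀ w : G, ((w • S : Sylow p G) : Subgroup G) = subgroupConjRight w⁻¹ (S : Subgroup G) :=
      fun w => coe_smul_eq w S
    refine ⟨?_, ?_, ?_, ?_, ?_⟩
    · show subgroupConjRight (z i.val)⁻¹ (Y i) ∈ sylowMembers p 𝓕 ((z i.val • S : Sylow p G) : Subgroup G)
      rw [hcoe]
      exact sylowMembers_conj h𝓕 hY1 _
    · show subgroupConjRight (z i.val)⁻¹ (Y i) ∈ sylowMembers p 𝓕 ((z (i.val + 1) • S : Sylow p G) : Subgroup G)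
      rw [hcoe, ← hX_succ]
      exact sylowMembers_conj h𝓕 hY1 _
    · show z i.val * y i * (z i.val)⁻¹ ∈ subgroupConjRight (z i.val)⁻¹ (Y i)
      rw [mem_subgroupConjRight, inv_inv]
      have e : (z i.val)⁻¹ * (z i.val * y i * (z i.val)⁻¹) * z i.val = y i := by group
      rwa [e]
    · show subgroupConjRight (z i.val * y i * (z i.val)⁻¹) ((z (i.val + 1) • S : Sylow p G) : Subgroup G) =
        ((z i.val • S : Sylow p G) : Subgroup G)
      have e : z (i.val + 1) • S = (z i.val * y i * (z i.val)⁻¹) • (z i.val • S) := by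
        rw [← mul_smul, hzs i]
        congr 1
        group
      rw [e, conjRight_eq_of_smul]
    · intro a ha
      have hmem : (z (i.val + 1))⁻¹ * a * z (i.val + 1) ∈ (S : Set G) ∩ (Y i : Set G) :=
        hAll i ⟨a, ha, rfl⟩
      refine Subgroup.mem_inf.mpr ⟨?_, ?_⟩
      · show a ∈ ((z (i.val + 1) • S : Sylow p G) : Subgroup G)
        rw [CfsgLib.Trans.mem_sylow_smul]
        exact hmem.1
      · show a ∈ subgroupConjRight (z i.val)⁻¹ (Y i)
        rw [mem_subgroupConjRight, inv_inv]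
        have h5 := hmem.2
        have e : (z i.val)⁻¹ * a * z i.val = y i * ((z (i.val + 1))⁻¹ * a * z (i.val + 1)) * (y i)⁻¹ := by
          rw [hzs i]; group
        rw [e]
        exact (Y i).mul_mem ((Y i).mul_mem hY2 h5) ((Y i).inv_mem hY2)

/-- `S2939`. -/
theorem controls_iff_stronglyControls (𝓕 : Set (Subgroup G)) (h𝓕 : IsNormalSet 𝓕) :
    ControlsSylowIntersections p 𝓕 ↔ FamilyStronglyControlsFusion p 𝓕 :=
  ⟨stronglyControls_of_controls 𝓕 h𝓕, controls_of_stronglyControls 𝓕 h𝓕⟩

end CfsgLib.Local
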