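import Cfsg.Agent.Lib.Local.HSub
import Cfsg.Agent.Lib.SS.Huppert
import Cfsg.Agent.Lib.SS.System
import Cfsg.Agent.Lib.Local.Basic

/-! Supersolvability from `H`-subgroups (`S3032`). -/

set_option autoImplicit false
set_option linter.unusedSectionVars false
set_option linter.style.haveILetI false

namespace CfsgLib.Local.HSub

open Cfsg Subgroup CfsgLib.Solv
open scoped Pointwise commutatorElement

universe u

section base

variable {H : Type u} [Group H] [Finite H] {p : ℕ} [Fact p.Prime]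

/-- A minimal normal subgroup in `Q` is cyclic. -/
theorem exists_cyclic_normal [Group.IsSolvable H] (Q C₁ : Subgroup H) [hQn : Q.Normal] [hCn : C₁.Normal]
    (hQ : IsPGroup p Q) (hQ0 : Q ≠ ⊥) (h1 : ∀ h : H, h ^ (p - 1) ∈ C₁) (h2 : ∀ h h' : H, ⁅h, h'⁆ ∈ C₁)
    (h3 : ∀ y ∈ C₁, (orderOf y).Coprime p → y ∈ centralizer (Q : Set H)) :
    ∃ M : Subgroup H, M.Normal ∧ M ≠ ⊥ ∧ IsCyclic M := by
  classical
  have hp : p.Prime := Fact.out
  obtain ⟨M, hMn, hMb, hMQ, hMmin⟩ := CfsgLib.SS.exists_minimal_normal_le Q hQ0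
  refine ⟨M, hMn, hMb, ?_⟩
  haveI := hMn
  obtain ⟨hMc, p', hp', hMexp⟩ := CfsgLib.Solv.minimal_normal_elementary M hMb hMmin
  have hMp : IsPGroup p M := hQ.to_le hMQ
  haveI hfp' : Fact p'.Prime := ⟨hp'⟩
  have hcommM : ∀ x ∈ M, ∀ y ∈ M, x * y = y * x := fun x hx y hy => by
    have := hMc.is_comm.comm ⟨x, hx⟩ ⟨y, hy⟩
    exact congrArg Subtype.val this
  obtain ⟨m₁, hm₁, hm₁1⟩ := (Subgroup.ne_bot_iff_exists_ne_one.mp hMb |> fun ⟨x, hx⟩ => (⟨x, x.2, fun h => hx (Subtype.ext h)⟩ : ∃ m ∈ M, m ≠ 1))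
  have hpp' : p' = p := by
    obtain ⟨k, hk⟩ := IsPGroup.iff_orderOf.1 hMp ⟨m₁, hm₁⟩
    have h4 : orderOf m₁ = p ^ k := by
      rw [← hk]
      exact (Subgroup.orderOf_mk _ _).symm
    have h5 : orderOf m₁ = p' := orderOf_eq_prime (hMexp m₁ hm₁) hm₁1
    rw [h5] at h4
    have h6 : p ∣ p' := by
      rw [h4]
      refine dvd_pow_self p ?_
      rintro rfl
      rw [pow_zero] at h4
      exact hp'.one_lt.ne' h4
    exact ((Nat.prime_dvd_prime_iff_eq hp hp').mp h6).symm
  subst hpp'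
  -- `C₁` centralizes `M`
  have hC : C₁ ≤ centralizer (M : Set H) := by
    let Γ : Subgroup (MulAut M) := ((MulAut.conjNormal : H →* MulAut M).comp C₁.subtype).range
    have hΓ : IsPGroup p' Γ := by
      rintro ⟨_, ⟨c, rfl⟩⟩
      obtain ⟨u, v, huv, -, ⟨k, hk⟩, hv, -, hvz⟩ := CfsgLib.Tr.exists_pow_decomp p' (c : H)
      have hvC : v ∈ C₁ := (zpowers_le.mpr c.2) hvz
      have hvZ := h3 v hvC hv
      have h4 : (MulAut.conjNormal v : MulAut M) = 1 := by
        ext m
        rw [MulAut.conjNormal_apply]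
        have := Subgroup.mem_centralizer_iff.mp hvZ m (hMQ m.2)
        rw [← this, mul_inv_cancel_right]
        rfl
      have h5 : (MulAut.conjNormal (c : H) : MulAut M) = MulAut.conjNormal u := by
        rw [← huv, map_mul, h4, mul_one]
      refine ⟨k, Subtype.ext ?_⟩
      show (MulAut.conjNormal (c : H) : MulAut M) ^ p' ^ k = 1
      rw [h5, ← map_pow, hk, map_one]
    have hdvd : p' ∣ Nat.card M := by
      have h4 : orderOf (⟨m₁, hm₁⟩ : M) = p' := by
        rw [Subgroup.orderOf_mk]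
        exact orderOf_eq_prime (hMexp m₁ hm₁) hm₁1
      rw [← h4]
      exact orderOf_dvd_natCard _
    obtain ⟨b, hb, hb1⟩ := hΓ.exists_fixed_point_of_prime_dvd_card_of_fixed_point (α := M) hdvd
      (a := 1) (fun γ => map_one (γ : MulAut M))
    have hbC : ∀ c ∈ C₁, c * (b : H) * c⁻¹ = b := by
      intro c hc
      have h4 := hb ⟨MulAut.conjNormal c, ⟨⟨c, hc⟩, rfl⟩⟩
      have h5 : (((MulAut.conjNormal c : MulAut M) b : M) : H) = b := congrArg Subtype.val h4
      rwa [MulAut.conjNormal_apply] at h5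
    haveI hZn : (centralizer (C₁ : Set H)).Normal := CfsgLib.Local.centralizer_normal_of_normal C₁ hCn
    have hT := hMmin (M ⊓ centralizer (C₁ : Set H)) inferInstance inf_le_left
    rcases hT with hT | hT
    · exfalso
      have h4 : (b : H) ∈ M ⊓ centralizer (C₁ : Set H) := by
        refine ⟨b.2, Subgroup.mem_centralizer_iff.mpr fun c hc => ?_⟩
        have := hbC c hc
        rw [mul_inv_eq_iff_eq_mul] at this
        exact this
      rw [hT, Subgroup.mem_bot] at h4
      exact hb1 (Subtype.ext h4).symm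
    · rw [Subgroup.le_centralizer_iff]
      exact hT ▸ inf_le_right
  have hCm : ∀ c ∈ C₁, ∀ m ∈ M, c * m * c⁻¹ = m := by
    intro c hc m hm
    have := Subgroup.mem_centralizer_iff.mp (hC hc) m hm
    rw [← this, mul_inv_cancel_right]
  have hpow : ∀ h : H, ∀ m ∈ M, ∃ a : ℕ, h * m * h⁻¹ = m ^ a := by
    intro h
    have hu : ∀ m ∈ M, h ^ p' * m * (h ^ p')⁻¹ = h * m * h⁻¹ := by
      intro m hm
      have h4 : h ^ p' = h * h ^ (p' - 1) := by
        rw [← pow_succ']
        congr 1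
        have := hp'.two_le
        omega
      have h5 := hCm _ (h1 h) m hm
      rw [h4]
      calc h * h ^ (p' - 1) * m * (h * h ^ (p' - 1))⁻¹
          = h * (h ^ (p' - 1) * m * (h ^ (p' - 1))⁻¹) * h⁻¹ := by group
        _ = h * m * h⁻¹ := by rw [h5]
    obtain ⟨a, m₀, hm₀, hne, he⟩ := CfsgLib.SS.exists_eigen_conj M p' hcommM hMexp hMb h hu
    let Ea : Subgroup H :=
      { carrier := {m | m ∈ M ∧ h * m * h⁻¹ = m ^ a}
        mul_mem' := by
          rintro x y ⟨hx, hx2⟩ ⟨hy, hy2⟩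
          refine ⟨M.mul_mem hx hy, ?_⟩
          have hcm : Commute x y := hcommM x hx y hy
          rw [hcm.mul_pow, ← hx2, ← hy2]
          group
        one_mem' := ⟨M.one_mem, by simp⟩
        inv_mem' := by
          rintro x ⟨hx, hx2⟩
          refine ⟨M.inv_mem hx, ?_⟩
          rw [inv_pow, ← hx2]
          group }
    have hEan : Ea.Normal := by
      constructor
      rintro m ⟨hm, hm2⟩ g
      refine ⟨hMn.conj_mem m hm g, ?_⟩
      have hc : ⁅h⁻¹, g⁻¹⁆ ∈ C₁ := h2 _ _
      have h5 := hCm _ hc m hm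
      rw [conj_pow, ← hm2]
      calc h * (g * m * g⁻¹) * h⁻¹
          = g * (h * (⁅h⁻¹, g⁻¹⁆ * m * ⁅h⁻¹, g⁻¹⁆⁻¹) * h⁻¹) * g⁻¹ := by
            rw [commutatorElement_def]; group
        _ = g * (h * m * h⁻¹) * g⁻¹ := by rw [h5]
    have hEaM := hMmin Ea hEan (fun x hx => hx.1)
    rcases hEaM with hE | hE
    · exfalso
      have h4 : m₀ ∈ Ea := ⟨hm₀, he⟩
      rw [hE, Subgroup.mem_bot] at h4
      exact hne h4
    · intro m hm
      rw [← hE] at hm
      exact ⟨a, hm.2⟩
  -- every cyclic subgroup of `M` is normal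
  have hz : (zpowers m₁).Normal := by
    constructor
    intro n hn g
    obtain ⟨i, rfl⟩ := mem_zpowers_iff.mp hn
    rw [← conj_zpow]
    obtain ⟨a, ha⟩ := hpow g m₁ hm₁
    rw [ha]
    exact zpow_mem (pow_mem (mem_zpowers _) _) _
  have hzM := hMmin _ hz (zpowers_le.mpr hm₁)
  rcases hzM with h | h
  · exfalso
    rw [Subgroup.zpowers_eq_bot] at h
    exact hm₁1 h
  · rw [← h]
    infer_instance

end base

/-- Supersolvability from a subgroup `C₁` with abelian quotient of exponent dividing `p - 1`, whose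
`p'`-elements centralize `Q`. -/
theorem base' : ∀ (n : ℕ) (H : Type u) [Group H] [Finite H], Nat.card H = n → ∀ (p : ℕ) [Fact p.Prime]
    (Q C₁ : Subgroup H) [Q.Normal] [C₁.Normal], IsPGroup p Q → IsSupersolvable (H ⧸ Q) →
    (∀ h : H, h ^ (p - 1) ∈ C₁) → (∀ h h' : H, ⁅h, h'⁆ ∈ C₁) →
    (∀ y ∈ C₁, (orderOf y).Coprime p → y ∈ centralizer (Q : Set H)) → IsSupersolvable H := by
  intro n
  induction n using Nat.strong_induction_on with
  | _ n IH =>
  intro H _ _ hn p _ Q C₁ _ _ hQ hS h1 h2 h3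
  have hp : p.Prime := Fact.out
  by_cases hQ0 : Q = ⊥
  · subst hQ0
    refine CfsgLib.SS.isSupersolvable_of_reach_ker (QuotientGroup.mk' ⊥) (QuotientGroup.mk'_surjective _) ?_ hS
    rw [QuotientGroup.ker_mk']
    exact CfsgLib.SS.Reach.bot
  haveI hsq : Group.IsSolvable (H ⧸ Q) := CfsgLib.SS.isSolvable_of_supersolvable hS
  haveI hnq : Group.IsNilpotent Q := hQ.isNilpotent
  haveI hsQ : Group.IsSolvable Q := inferInstance
  haveI hsH : Group.IsSolvable H := solvable_of_ker_le_range Q.subtype (QuotientGroup.mk' Q) (by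
    rw [QuotientGroup.ker_mk', Subgroup.range_subtype])
  obtain ⟨M, hMn, hMb, hMc⟩ := exists_cyclic_normal Q C₁ hQ hQ0 h1 h2 h3
  haveI := hMn
  haveI := hMc
  apply CfsgLib.SS.isSupersolvable_of_cyclic_normal M
  have hlt : Nat.card (H ⧸ M) < n := by
    rw [← hn]
    have h4 : Nat.card (H ⧸ M) * Nat.card M = Nat.card H := (Subgroup.card_eq_card_quotient_mul_card_subgroup M).symm
    have h5 : 1 < Nat.card M := by
      rcases Subgroup.ne_bot_iff_exists_ne_one.mp hMb with ⟨x, hx⟩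
      haveI : Nontrivial M := ⟨⟨x, 1, hx⟩⟩
      exact Finite.one_lt_card
    rw [← h4]
    exact lt_mul_of_one_lt_right Nat.card_pos h5
  haveI hQ' : (Q.map (QuotientGroup.mk' M)).Normal := Subgroup.Normal.map inferInstance _ (QuotientGroup.mk'_surjective M)
  haveI hC' : (C₁.map (QuotientGroup.mk' M)).Normal := Subgroup.Normal.map inferInstance _ (QuotientGroup.mk'_surjective M)
  refine IH _ hlt (H ⧸ M) rfl p (Q.map (QuotientGroup.mk' M)) (C₁.map (QuotientGroup.mk' M)) (hQ.map _) ?_ ?_ ?_ ?_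
  · -- the quotient
    let f : H ⧸ Q →* (H ⧸ M) ⧸ Q.map (QuotientGroup.mk' M) :=
      QuotientGroup.lift Q ((QuotientGroup.mk' (Q.map (QuotientGroup.mk' M))).comp (QuotientGroup.mk' M)) (by
        intro x hx
        rw [MonoidHom.mem_ker, MonoidHom.comp_apply]
        exact (QuotientGroup.eq_one_iff _).2 ⟨x, hx, rfl⟩)
    refine CfsgLib.SS.isSupersolvable_of_surjective f ?_ hS
    intro y
    obtain ⟨y', rfl⟩ := QuotientGroup.mk'_surjective _ y
    obtain ⟨y'', rfl⟩ := QuotientGroup.mk'_surjective _ y'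
    exact ⟨(y'' : H ⧸ Q), rfl⟩
  · intro h
    obtain ⟨h', rfl⟩ := QuotientGroup.mk'_surjective _ h
    exact ⟨_, h1 h', map_pow _ _ _⟩
  · intro h k
    obtain ⟨h', rfl⟩ := QuotientGroup.mk'_surjective _ h
    obtain ⟨k', rfl⟩ := QuotientGroup.mk'_surjective _ k
    exact ⟨_, h2 h' k', map_commutatorElement _ _ _⟩
  · rintro _ ⟨c, hc, rfl⟩ hcop
    obtain ⟨u, v, huv, -, ⟨k, hk⟩, hv, huz, hvz⟩ := CfsgLib.Tr.exists_pow_decomp p c
    have hvC : v ∈ C₁ := (zpowers_le.mpr hc) hvz
    have hvZ := h3 v hvC hv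
    have hu1 : QuotientGroup.mk' M u = 1 := by
      have h4 : (QuotientGroup.mk' M u) ^ p ^ k = 1 := by rw [← map_pow, hk, map_one]
      have h5 : (QuotientGroup.mk' M u) ∈ zpowers (QuotientGroup.mk' M c) := by
        obtain ⟨i, rfl⟩ := mem_zpowers_iff.mp huz
        exact ⟨i, by simp⟩
      have h6 : (QuotientGroup.mk' M u) ^ orderOf (QuotientGroup.mk' M c) = 1 := by
        obtain ⟨i, hi⟩ := mem_zpowers_iff.mp h5
        rw [← hi, ← zpow_natCast, ← zpow_mul, mul_comm, zpow_mul, zpow_natCast, pow_orderOf_eq_one, one_zpow]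
      exact CfsgLib.Tr.eq_one_of_pow_eq_one_of_coprime h6 h4 (Nat.Coprime.pow_right k hcop)
    have hcv : QuotientGroup.mk' M c = QuotientGroup.mk' M v := by
      rw [← huv, map_mul, hu1, one_mul]
    rw [hcv, Subgroup.mem_centralizer_iff]
    rintro _ ⟨q, hq, rfl⟩
    rw [← map_mul, ← map_mul, Subgroup.mem_centralizer_iff.mp hvZ q hq]

section sec

variable {H : Type u} [Group H] [Finite H] {p : ℕ} [Fact p.Prime]

/-- Facts on sections of order `p`. -/
theorem section_facts (R R₀ : Subgroup H) [hRn : R.Normal] [hR₀n : R₀.Normal] (hidx : R₀.relIndex R = p) :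
    (∀ h : H, ∀ x ∈ R, h ^ (p - 1) * x * (h ^ (p - 1))⁻¹ * x⁻¹ ∈ R₀) ∧
    (∀ h h' : H, ∀ x ∈ R, ⁅h, h'⁆ * x * ⁅h, h'⁆⁻¹ * x⁻¹ ∈ R₀) := by
  have hp : p.Prime := Fact.out
  haveI hN : (R₀.subgroupOf R).Normal := inferInstance
  have hcard : Nat.card (R ⧸ R₀.subgroupOf R) = p := hidx
  haveI hcyc : IsCyclic (R ⧸ R₀.subgroupOf R) := isCyclic_of_prime_card hcard
  let σ : H →* MulAut R := MulAut.conjNormal
  have hσa : ∀ (h : H) (x : R), ((σ h x : R) : H) = h * x * h⁻¹ := fun h x => MulAut.conjNormal_apply h x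
  have hσ : ∀ h : H, (R₀.subgroupOf R).map (σ h).toMonoidHom = R₀.subgroupOf R := by
    intro h
    have hle' : (R₀.subgroupOf R).map (σ h).toMonoidHom ≤ R₀.subgroupOf R := by
      rintro _ ⟨r, hr, rfl⟩
      have hr' : (r : H) ∈ R₀ := hr
      apply Subgroup.mem_subgroupOf.mpr
      show ((σ h r : R) : H) ∈ R₀
      rw [hσa]
      exact hR₀n.conj_mem _ hr' h
    refine Subgroup.eq_of_le_of_card_ge hle' ?_
    have hinj : Function.Injective ((σ h).toMonoidHom) := (σ h).injective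
    exact (Subgroup.card_map_of_injective hinj).ge
  let ψ : H → MulAut (R ⧸ R₀.subgroupOf R) := fun h => QuotientGroup.congr _ _ (σ h) (hσ h)
  have hψa : ∀ (h : H) (x : R), ψ h (x : R ⧸ R₀.subgroupOf R) = ((σ h x : R) : R ⧸ R₀.subgroupOf R) := fun h x => rfl
  let Ψ : H →* MulAut (R ⧸ R₀.subgroupOf R) := MonoidHom.mk' ψ (by
    intro a b
    ext y
    induction y using QuotientGroup.induction_on with
    | H x =>
      rw [MulAut.mul_apply, hψa, hψa, hψa, map_mul]
      rfl)
  have hΨa : ∀ (h : H) (x : R), Ψ h (x : R ⧸ R₀.subgroupOf R) = ((σ h x : R) : R ⧸ R₀.subgroupOf R) := fun h x => rfl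
  have key : ∀ k : H, Ψ k = 1 → ∀ x ∈ R, k * x * k⁻¹ * x⁻¹ ∈ R₀ := by
    intro k hk x hx
    have h1 : Ψ k ((⟨x, hx⟩ : R) : R ⧸ R₀.subgroupOf R) = ((⟨x, hx⟩ : R) : R ⧸ R₀.subgroupOf R) := by
      rw [hk]; rfl
    rw [hΨa] at h1
    have h2 := (QuotientGroup.eq (s := R₀.subgroupOf R)).mp h1
    have h3 : ((σ k ⟨x, hx⟩ : R)⁻¹ * ⟨x, hx⟩ : R).1 ∈ R₀ := Subgroup.mem_subgroupOf.mp h2
    have h4 : ((σ k ⟨x, hx⟩ : R)⁻¹ * ⟨x, hx⟩ : R).1 = (k * x * k⁻¹)⁻¹ * x := by
      show ((σ k ⟨x, hx⟩ : R) : H)⁻¹ * x = _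
      rw [hσa]
    rw [h4] at h3
    have h5 : k * x * k⁻¹ * x⁻¹ = x * ((k * x * k⁻¹)⁻¹ * x)⁻¹ * x⁻¹ := by group
    rw [h5]
    exact hR₀n.conj_mem _ (R₀.inv_mem h3) x
  constructor
  · intro h
    apply key
    rw [map_pow]
    have h3 : (Ψ h) ^ Nat.card (MulAut (R ⧸ R₀.subgroupOf R)) = 1 := pow_card_eq_one'
    rwa [IsCyclic.card_mulAut, hcard, Nat.totient_prime hp] at h3
  · intro h h'
    apply key
    rw [map_commutatorElement]
    apply (IsCyclic.mulAutMulEquiv (R ⧸ R₀.subgroupOf R)).injective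
    rw [map_commutatorElement, map_one, commutatorElement_eq_one_iff_commute]
    exact Commute.all _ _

/-- The elements acting trivially on all sections of order `p` in `Q`. -/
def secCent (Q : Subgroup H) (p : ℕ) : Subgroup H where
  carrier := {h | ∀ R R₀ : Subgroup H, R.Normal → R₀.Normal → R₀ ≤ R → R ≤ Q → R₀.relIndex R = p →
    ∀ x ∈ R, h * x * h⁻¹ * x⁻¹ ∈ R₀}
  mul_mem' := by
    intro a b ha hb R R₀ h1 h2 h3 h4 h5 x hx
    have hb' := hb R R₀ h1 h2 h3 h4 h5 x hx
    have ha' := ha R R₀ h1 h2 h3 h4 h5 x hx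
    have h6 := h2.conj_mem _ hb' a
    have e : a * b * x * (a * b)⁻¹ * x⁻¹ = a * (b * x * b⁻¹ * x⁻¹) * a⁻¹ * (a * x * a⁻¹ * x⁻¹) := by group
    rw [e]
    exact mul_mem h6 ha'
  one_mem' := by
    intro R R₀ h1 h2 h3 h4 h5 x hx
    simp
  inv_mem' := by
    intro a ha R R₀ h1 h2 h3 h4 h5 x hx
    have hz : a⁻¹ * x * a ∈ R := by
      have := h1.conj_mem x hx a⁻¹
      simpa using this
    have h6 := ha R R₀ h1 h2 h3 h4 h5 _ hz
    have e : a⁻¹ * x * a⁻¹⁻¹ * x⁻¹ = (a * (a⁻¹ * x * a) * a⁻¹ * (a⁻¹ * x * a)⁻¹)⁻¹ := by group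
    rw [e]
    exact inv_mem h6

theorem secCent_normal (Q : Subgroup H) (p : ℕ) : (secCent Q p).Normal := by
  constructor
  intro h hh g R R₀ h1 h2 h3 h4 h5 x hx
  have hz : g⁻¹ * x * g ∈ R := by
    have := h1.conj_mem x hx g⁻¹
    simpa using this
  have h6 := h2.conj_mem _ (hh R R₀ h1 h2 h3 h4 h5 _ hz) g
  have e : g * h * g⁻¹ * x * (g * h * g⁻¹)⁻¹ * x⁻¹ =
      g * (h * (g⁻¹ * x * g) * h⁻¹ * (g⁻¹ * x * g)⁻¹) * g⁻¹ := by group
  rw [e]
  exact h6

/-- Subgroups of a normal cyclic subgroup are normal. -/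
theorem normal_of_le_cyclic {X F : Subgroup H} (hX : X.Normal) (hc : IsCyclic X) (hF : F ≤ X) : F.Normal := by
  constructor
  intro f hf g
  obtain ⟨⟨x, hx⟩, hgen⟩ := hc.exists_generator
  have h1 : g * x * g⁻¹ ∈ X := hX.conj_mem x hx g
  obtain ⟨t, ht⟩ := mem_zpowers_iff.mp (hgen ⟨_, h1⟩)
  have ht' : x ^ t = g * x * g⁻¹ := by
    have := congrArg Subtype.val ht
    simpa using this
  obtain ⟨i, hi⟩ := mem_zpowers_iff.mp (hgen ⟨f, hF hf⟩)
  have hi' : x ^ i = f := by
    have := congrArg Subtype.val hi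
    simpa using this
  have h2 : g * f * g⁻¹ = f ^ t := by
    rw [← hi', ← conj_zpow, ← ht', ← zpow_mul, ← zpow_mul, mul_comm]
  rw [h2]
  exact zpow_mem hf t

/-- `S3032`, the `p`-group case. -/
theorem base {Q : Subgroup H} [hQn : Q.Normal] (hQ : IsPGroup p Q) (hS : IsSupersolvable (H ⧸ Q))
    (h : IsCyclic Q ∨ ∃ a : ℕ, 1 ≤ a ∧ p ^ a < Nat.card Q ∧
      ∀ F : Subgroup H, F ≤ Q → (Nat.card F = p ^ a ∨ (p ^ a = 2 ∧ Nat.card F = 4)) → F.Normal) :
    IsSupersolvable H := by
  classical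
  have hp : p.Prime := Fact.out
  rcases h with hc | ⟨a, ha, hk, hnorm⟩
  · haveI := hc
    exact CfsgLib.SS.isSupersolvable_of_cyclic_normal Q hS
  haveI hCn : (secCent Q p).Normal := secCent_normal Q p
  refine base' _ H rfl p Q (secCent Q p) hQ hS ?_ ?_ ?_
  · intro h R R₀ h1 h2 _ _ h5
    haveI := h1
    haveI := h2
    exact (section_facts R R₀ h5).1 h
  · intro h h' R R₀ h1 h2 _ _ h5
    haveI := h1
    haveI := h2
    exact (section_facts R R₀ h5).2 h h'
  intro y hyC hy
  -- `(A)`: `y` centralizes subgroups whose maximal subgroups are normal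
  have hJ : ∀ J : Subgroup H, J ≤ Q → J.Normal →
      (∀ F' : Subgroup J, IsCoatom F' → (F'.map J.subtype).Normal) → ∀ z ∈ J, y * z * y⁻¹ = z := by
    intro J hJQ hJn hco z hz
    have hJp : IsPGroup p J := hQ.to_le hJQ
    have htriv : ∀ b ∈ zpowers y, ∀ j ∈ J, b * j * b⁻¹ * j⁻¹ ∈ (frattini J).map J.subtype := by
      intro b hb j hj
      have hbC : b ∈ secCent Q p := (zpowers_le.mpr hyC) hb
      have hmemJ : b * j * b⁻¹ * j⁻¹ ∈ J := mul_mem (hJn.conj_mem j hj b) (inv_mem hj)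
      refine ⟨⟨_, hmemJ⟩, mem_frattini_iff.mpr fun F' hF' => ?_, rfl⟩
      obtain ⟨-, hi⟩ := coatom_of_pgroup hJp hF'
      have hrel : (F'.map J.subtype).relIndex J = p := by
        rw [Subgroup.relIndex, Subgroup.subgroupOf, Subgroup.comap_map_eq_self_of_injective J.subtype_injective, hi]
      obtain ⟨w, hw, hwe⟩ := hbC J (F'.map J.subtype) hJn (hco F' hF') (Subgroup.map_subtype_le F') hJQ hrel j hj
      have : (⟨_, hmemJ⟩ : J) = w := Subtype.ext hwe.symm
      rw [this]
      exact hw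
    have hAK : zpowers y ≤ normalizer ((J : Subgroup H) : Set H) := by
      rw [Subgroup.normalizer_eq_top_iff.mpr hJn]; exact le_top
    have hcop : (Nat.card (zpowers y)).Coprime (Nat.card (frattini J)) := by
      rw [Nat.card_zpowers]
      obtain ⟨m, hm⟩ := IsPGroup.iff_card.1 (hJp.to_subgroup (frattini J))
      rw [hm]
      exact Nat.Coprime.pow_right _ hy
    have h := frattini_coprime_trivial (zpowers y) J hAK hcop htriv
    have h2 := Subgroup.mem_centralizer_iff.mp (h (mem_zpowers y)) z hz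
    rw [← h2, mul_inv_cancel_right]
  have hcyc : ∀ X : Subgroup H, X ≤ Q → X.Normal → IsCyclic X → ∀ z ∈ X, y * z * y⁻¹ = z := by
    intro X hXQ hXn hXc
    refine hJ X hXQ hXn fun F' _ => ?_
    exact normal_of_le_cyclic hXn hXc (Subgroup.map_subtype_le F')
  have key : ∀ x ∈ Q, (x ^ p = 1 ∨ (p = 2 ∧ x ^ 4 = 1)) → y * x * y⁻¹ = x := by
    intro x hxQ hx
    by_cases hx1 : x = 1
    · subst hx1; simp
    by_cases hk2 : p ^ a = 2
    · have hp2 : p = 2 := by
        have h1 : p ∣ 2 := by rw [← hk2]; exact dvd_pow_self p (by omega)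
        exact (Nat.prime_dvd_prime_iff_eq hp Nat.prime_two).mp h1
      have hx4 : x ^ 4 = 1 := by
        rcases hx with h | h
        · rw [hp2] at h
          calc x ^ 4 = (x ^ 2) ^ 2 := by rw [← pow_mul]
            _ = 1 := by rw [h, one_pow]
        · exact h.2
      have hord : orderOf x ∣ 2 ^ 2 := orderOf_dvd_of_pow_eq_one (by simpa using hx4)
      obtain ⟨j, hj, hje⟩ := (Nat.dvd_prime_pow Nat.prime_two).1 hord
      have hcard : Nat.card (zpowers x) = orderOf x := Nat.card_zpowers x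
      have hFn : (zpowers x).Normal := by
        refine hnorm _ (zpowers_le.mpr hxQ) ?_
        rw [hcard, hje, hk2]
        interval_cases j
        · exact absurd (orderOf_eq_one_iff.mp (by simpa using hje)) hx1
        · left; norm_num
        · right; exact ⟨rfl, by norm_num⟩
      exact hcyc _ (zpowers_le.mpr hxQ) hFn inferInstance x (mem_zpowers x)
    · have hb : ∃ b ≤ a, x ^ p ^ b = 1 := by
        rcases hx with h | ⟨h2, h⟩
        · exact ⟨1, ha, by simpa using h⟩
        · refine ⟨2, ?_, ?_⟩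
          · by_contra hlt
            have ha1 : a = 1 := by omega
            apply hk2
            rw [ha1, h2]; norm_num
          · rw [h2]; simpa using h
      obtain ⟨b, hba, hxb⟩ := hb
      obtain ⟨j, hj, hje⟩ := (Nat.dvd_prime_pow hp).1 (orderOf_dvd_of_pow_eq_one hxb)
      have hcard : Nat.card (zpowers x) ≤ p ^ a := by
        rw [Nat.card_zpowers, hje]
        exact Nat.pow_le_pow_right hp.pos (hj.trans hba)
      obtain ⟨E, hxE, hEQ, hEc⟩ := exists_between hQ (zpowers_le.mpr hxQ) hcard hk.le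
      have hEn := hnorm E hEQ (Or.inl hEc)
      have hxE' : x ∈ E := hxE (mem_zpowers x)
      by_cases hEcy : IsCyclic E
      · exact hcyc E hEQ hEn hEcy x hxE'
      obtain ⟨n, hn⟩ := IsPGroup.iff_card.1 hQ
      have han : a < n := by
        rw [hn] at hk
        exact (Nat.pow_lt_pow_iff_right hp.one_lt).mp hk
      obtain ⟨J, hEJ, hJQ, hJc⟩ := exists_between (a := a + 1) hQ hEQ
        (by rw [hEc]; exact Nat.pow_le_pow_right hp.pos (by omega))
        (by rw [hn]; exact Nat.pow_le_pow_right hp.pos (by omega))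
      have hJp : IsPGroup p J := hQ.to_le hJQ
      have hJcy : ¬ IsCyclic J := by
        intro hc
        apply hEcy
        exact isCyclic_of_injective (Subgroup.inclusion hEJ) (Subgroup.inclusion_injective hEJ)
      have hcoat : ∀ F' : Subgroup J, IsCoatom F' → (F'.map J.subtype).Normal := by
        intro F' hF'
        obtain ⟨-, hi⟩ := coatom_of_pgroup hJp hF'
        have h1 : Nat.card F' * F'.index = Nat.card J := Subgroup.card_mul_index F'
        rw [hi, hJc, pow_succ] at h1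
        have h2 : Nat.card F' = p ^ a := Nat.eq_of_mul_eq_mul_right hp.pos h1
        refine hnorm _ ((Subgroup.map_subtype_le _).trans hJQ) (Or.inl ?_)
        rw [Subgroup.card_map_of_injective J.subtype_injective, h2]
      have hJn : J.Normal := by
        constructor
        intro j hj g
        have h1 : zpowers (⟨j, hj⟩ : J) ≠ ⊤ := by
          intro he
          apply hJcy
          exact ⟨⟨⟨j, hj⟩, fun u => by
            have : u ∈ zpowers (⟨j, hj⟩ : J) := by rw [he]; trivial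
            exact this⟩⟩
        obtain ⟨F', hF', hle⟩ := (eq_top_or_exists_le_coatom _).resolve_left h1
        have h2 := hcoat F' hF'
        have h3 : j ∈ F'.map J.subtype := ⟨⟨j, hj⟩, hle (mem_zpowers _), rfl⟩
        exact (Subgroup.map_subtype_le _) (h2.conj_mem j h3 g)
      exact hJ J hJQ hJn hcoat x (hEJ hxE')
  have h1 : (orderOf (MulAut.conjNormal y : MulAut Q)).Coprime p :=
    Nat.Coprime.coprime_dvd_left (orderOf_map_dvd MulAut.conjNormal y) hy
  have h2 := CfsgLib.Omega2.aut_trivial_omega hQ (MulAut.conjNormal y : MulAut Q) h1 (by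
    intro x hx
    apply Subtype.ext
    rw [MulAut.conjNormal_apply]
    apply key x x.2
    rcases hx with h | ⟨h2, h⟩
    · exact Or.inl (by simpa using congrArg Subtype.val h)
    · exact Or.inr ⟨h2, by simpa using congrArg Subtype.val h⟩)
  rw [Subgroup.mem_centralizer_iff]
  intro u hu
  have h3 : ((MulAut.conjNormal y : MulAut Q) ⟨u, hu⟩ : H) = u := by rw [h2]; rfl
  rw [MulAut.conjNormal_apply] at h3
  calc u * y = (y * u * y⁻¹) * y := by rw [h3]
    _ = y * u := by group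

end sec

section final

/-- A normal `p`-complement forces `O^p(G) ∩ Q = 1`. -/
theorem residual_inf_of_complement {G : Type*} [Group G] [Finite G] {p : ℕ} [Fact p.Prime]
    (h : HasNormalPComplement p G) (Q : Sylow p G) : pResidual p G ⊓ (Q : Subgroup G) = ⊥ := by
  have hp : p.Prime := Fact.out
  obtain ⟨P', N, hN, hc⟩ := h
  haveI := hN
  have hRN : pResidual p G ≤ N := by
    obtain ⟨k, hk⟩ := IsPGroup.iff_card.1 P'.2
    exact CfsgLib.Trans.pResidual_le_of_index N (k := k) (by rw [hc.symm.index_eq_card, hk])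
  obtain ⟨h', hh'⟩ := MulAction.exists_smul_eq G P' Q
  rw [eq_bot_iff]
  rintro y ⟨hy1, hy2⟩
  have hy3 : y ∈ (h' • P' : Sylow p G) := by rw [hh']; exact hy2
  have hy4 : h'⁻¹ * y * h' ∈ (P' : Subgroup G) := by
    have h5 : y ∈ MulAut.conj h' • (P' : Subgroup G) := hy3
    rw [Subgroup.mem_pointwise_smul_iff_inv_smul_mem] at h5
    simpa using h5
  have hnR := CfsgLib.Tr.pResidual_normal p G
  have hy5 : h'⁻¹ * y * h' ∈ N := by
    have := hnR.conj_mem y hy1 h'⁻¹
    apply hRN
    simpa using this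
  have h6 : h'⁻¹ * y * h' ∈ N ⊓ (P' : Subgroup G) := ⟨hy5, hy4⟩
  rw [disjoint_iff.mp hc.disjoint, Subgroup.mem_bot] at h6
  have h7 : y = h' * (h'⁻¹ * y * h') * h'⁻¹ := by group
  rw [h7, h6]
  simp

/-- The hypothesis of `S3032`. -/
def HH {G : Type*} [Group G] [Finite G] (E : Subgroup G) : Prop :=
  ∀ (p : ℕ), p.Prime → ∀ P : Subgroup G, P ≤ E → IsPGroup p P → ¬ p ∣ P.relIndex E → ¬ IsCyclic ↥P →
    ∃ D : Subgroup G, D ≤ P ∧ 1 < Nat.card D ∧ Nat.card D < Nat.card P ∧
      ∀ F : Subgroup G, F ≤ P → (Nat.card F = Nat.card D ∨ (Nat.card D = 2 ∧ Nat.card F = 4)) →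
        ∀ g : G, F.map (MulAut.conj g).toMonoidHom ⊓ Subgroup.normalizer (F : Set G) ≤ F

/-- Transport of `SC` to a subgroup. -/
theorem sc_subgroup {G : Type*} [Group G] [Finite G] {P : Subgroup G} {k : ℕ} (hSC : SC P k) (X : Subgroup G)
    (Q : Subgroup X) (hQ : ∀ v : X, v ∈ Q ↔ (v : G) ∈ P) : SC Q k := by
  intro E' hE'Q hE' v hv g' hg'
  have hE'c : Nat.card (E'.map X.subtype) = Nat.card E' :=
    Subgroup.card_map_of_injective X.subtype_injective
  have h1 : E'.map X.subtype ≤ P := by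
    rintro _ ⟨w, hw, rfl⟩
    exact (hQ w).mp (hE'Q hw)
  have h2 := hSC (E'.map X.subtype) h1 (by rwa [hE'c]) (v : G) ⟨v, hv, rfl⟩ (g' : G) ((hQ _).mp hg')
  obtain ⟨w, hw, hwe⟩ := h2
  have : w = g' * v * g'⁻¹ := Subtype.ext hwe
  rwa [← this]

theorem super_aux {G : Type u} [Group G] [Finite G] : ∀ (n : ℕ) (E : Subgroup G) [E.Normal], Nat.card E = n →
    IsSupersolvable (G ⧸ E) → HH E → IsSupersolvable G := by
  intro n
  induction n using Nat.strong_induction_on with
  | _ n IH =>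
  intro E hEn hn hS h
  by_cases hE0 : E = ⊥
  · subst hE0
    refine CfsgLib.SS.isSupersolvable_of_reach_ker (QuotientGroup.mk' ⊥) (QuotientGroup.mk'_surjective _) ?_ hS
    rw [QuotientGroup.ker_mk']
    exact CfsgLib.SS.Reach.bot
  have hne : Nat.card E ≠ 1 := by
    intro h1
    exact hE0 ((Subgroup.eq_bot_iff_card E).mpr h1)
  set p := (Nat.card E).minFac with hpdef
  have hp : p.Prime := Nat.minFac_prime hne
  haveI hfp : Fact p.Prime := ⟨hp⟩
  have hpd : p ∣ Nat.card E := Nat.minFac_dvd _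
  let Q₀ : Sylow p E := default
  set P : Subgroup G := (Q₀ : Subgroup E).map E.subtype with hP
  have hsyl : IsSylowIn p P E := isSylowIn_of_sylow Q₀
  have hPE : P ≤ E := hsyl.1
  have hPp : IsPGroup p P := hsyl.2.1
  have hnd : ¬ p ∣ P.relIndex E := hsyl.2.2
  have hQmem : ∀ v : E, v ∈ (Q₀ : Subgroup E) ↔ (v : G) ∈ P := by
    intro v
    constructor
    · intro hv
      exact ⟨v, hv, rfl⟩
    · rintro ⟨w, hw, hwe⟩
      have : w = v := Subtype.ext hwe
      rwa [← this]
  have hPQ : Nat.card P = Nat.card (Q₀ : Subgroup E) := Subgroup.card_map_of_injective E.subtype_injective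
  have hP0 : P ≠ ⊥ := by
    intro h0
    apply hnd
    rw [h0, Subgroup.relIndex_bot_left]
    exact hpd
  have hmin : ∀ q : ℕ, q.Prime → q ∣ Nat.card E → p ≤ q := fun q hq hd => Nat.minFac_le_of_dvd hq.two_le hd
  have hcycQ : IsCyclic P → IsCyclic (Q₀ : Subgroup E) := by
    intro hc
    let e := (Q₀ : Subgroup E).equivMapOfInjective E.subtype E.subtype_injective
    exact isCyclic_of_injective e.toMonoidHom e.injective
  -- structural data when `P` is not cyclic
  have hdata : ¬ IsCyclic P → ∃ a : ℕ, 1 ≤ a ∧ p ^ a < Nat.card P ∧ SC P (p ^ a) ∧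
      ∀ F : Subgroup G, F ≤ P → (Nat.card F = p ^ a ∨ (p ^ a = 2 ∧ Nat.card F = 4)) →
        ∀ g : G, F.map (MulAut.conj g).toMonoidHom ⊓ Subgroup.normalizer (F : Set G) ≤ F := by
    intro hnc
    obtain ⟨D, hDP, hD1, hDlt, hF⟩ := h p hp P hPE hPp hnd hnc
    obtain ⟨a, ha⟩ := IsPGroup.iff_card.1 (hPp.to_le hDP)
    have ha1 : 1 ≤ a := by
      rcases Nat.eq_zero_or_pos a with rfl | h0
      · rw [ha, pow_zero] at hD1
        exact absurd hD1 (lt_irrefl _)
      · exact h0
    rw [ha] at hDlt hF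
    exact ⟨a, ha1, hDlt, sc_of_h hPp (fun F hFP hFc g => hF F hFP hFc g), hF⟩
  -- the residual
  have hRQ : pResidual p E ⊓ (Q₀ : Subgroup E) = ⊥ := by
    by_cases hcyc : IsCyclic P
    · exact residual_inf_of_complement
        (normal_complement hpd hmin Q₀ (Or.inl (hcycQ hcyc))) Q₀
    · obtain ⟨a, ha1, hk, hSC, -⟩ := hdata hcyc
      refine main _ E rfl p Q₀ a hmin ha1 (by rwa [← hPQ]) ?_
      exact sc_subgroup hSC E _ hQmem
  set K : Subgroup G := (pResidual p E).map E.subtype with hK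
  have hKE : K ≤ E := Subgroup.map_subtype_le _
  haveI hKn : K.Normal := by
    constructor
    rintro _ ⟨x, hx, rfl⟩ g
    let σ : MulAut E := MulAut.conjNormal g
    have hσ : pResidual p E ≤ (pResidual p E).comap σ.toMonoidHom := by
      unfold pResidual
      rw [Subgroup.closure_le]
      intro y hy
      apply Subgroup.subset_closure
      show Nat.Coprime (orderOf (σ y)) p
      rw [MulEquiv.orderOf_eq]
      exact hy
    exact ⟨σ x, hσ hx, MulAut.conjNormal_apply g x⟩
  have hKP : K ⊓ P = ⊥ := by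
    rw [eq_bot_iff]
    rintro x ⟨⟨y, hy, rfl⟩, hx2⟩
    have h1 : y ∈ pResidual p E ⊓ (Q₀ : Subgroup E) := ⟨hy, (hQmem y).mpr hx2⟩
    rw [hRQ, Subgroup.mem_bot] at h1
    rw [h1]
    exact Subgroup.one_mem _
  have hdec : ∀ e ∈ E, ∃ k ∈ K, ∃ u ∈ P, e = k * u := by
    intro e he
    obtain ⟨β, hβ, τ, hτ, hβτ⟩ := CfsgLib.Fusion.exists_residual_mul_sylow Q₀ ⟨e, he⟩
    exact ⟨β, ⟨β, hβ, rfl⟩, τ, (hQmem τ).mp hτ, congrArg Subtype.val hβτ⟩
  -- the image of `E` in `G / K`
  have hmkKP : ∀ {u : G}, u ∈ P → QuotientGroup.mk' K u = 1 → u = 1 := by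
    intro u hu h1
    have h2 : u ∈ K ⊓ P := ⟨(QuotientGroup.eq_one_iff _).1 h1, hu⟩
    rwa [hKP, Subgroup.mem_bot] at h2
  have hQeq : E.map (QuotientGroup.mk' K) = P.map (QuotientGroup.mk' K) := by
    apply le_antisymm
    · rintro _ ⟨e, he, rfl⟩
      obtain ⟨k, hk, u, hu, rfl⟩ := hdec e he
      refine ⟨u, hu, ?_⟩
      have h1 : QuotientGroup.mk' K k = 1 := (QuotientGroup.eq_one_iff _).2 hk
      rw [map_mul, h1, one_mul]
    · exact Subgroup.map_mono hPE
  haveI hQbn : (E.map (QuotientGroup.mk' K)).Normal :=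
    Subgroup.Normal.map inferInstance _ (QuotientGroup.mk'_surjective K)
  have hQbp : IsPGroup p (E.map (QuotientGroup.mk' K)) := by
    rw [hQeq]
    exact hPp.map _
  have hinjP : Function.Injective ((QuotientGroup.mk' K).comp P.subtype) := by
    rw [injective_iff_map_eq_one]
    intro u hu
    exact Subtype.ext (hmkKP u.2 hu)
  have hQbcard : Nat.card (E.map (QuotientGroup.mk' K)) = Nat.card P := by
    rw [hQeq]
    have h1 : P.map (QuotientGroup.mk' K) = ((QuotientGroup.mk' K).comp P.subtype).range := by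
      rw [MonoidHom.range_comp, Subgroup.range_subtype]
    rw [h1]
    exact (Nat.card_congr (MonoidHom.ofInjective hinjP).toEquiv).symm
  have hSb : IsSupersolvable ((G ⧸ K) ⧸ E.map (QuotientGroup.mk' K)) := by
    let f : G ⧸ E →* (G ⧸ K) ⧸ E.map (QuotientGroup.mk' K) :=
      QuotientGroup.lift E ((QuotientGroup.mk' (E.map (QuotientGroup.mk' K))).comp (QuotientGroup.mk' K)) (by
        intro x hx
        rw [MonoidHom.mem_ker, MonoidHom.comp_apply]
        exact (QuotientGroup.eq_one_iff _).2 ⟨x, hx, rfl⟩)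
    refine CfsgLib.SS.isSupersolvable_of_surjective f ?_ hS
    intro y
    obtain ⟨y', rfl⟩ := QuotientGroup.mk'_surjective _ y
    obtain ⟨y'', rfl⟩ := QuotientGroup.mk'_surjective _ y'
    exact ⟨(y'' : G ⧸ E), rfl⟩
  have hGK : IsSupersolvable (G ⧸ K) := by
    refine base hQbp hSb ?_
    by_cases hcyc : IsCyclic P
    · left
      rw [hQeq]
      exact isCyclic_of_surjective ((QuotientGroup.mk' K).subgroupMap P) ((QuotientGroup.mk' K).subgroupMap_surjective P)
    · right
      obtain ⟨a, ha1, hk, hSC, hF⟩ := hdata hcyc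
      refine ⟨a, ha1, by rwa [hQbcard], ?_⟩
      intro Fb hFb hFc
      rw [hQeq] at hFb
      -- the lift of `Fb`
      set F : Subgroup G := Fb.comap (QuotientGroup.mk' K) ⊓ P with hFdef
      have hFP : F ≤ P := inf_le_right
      have hFmap : F.map (QuotientGroup.mk' K) = Fb := by
        apply le_antisymm
        · rintro _ ⟨f, hf, rfl⟩
          exact hf.1
        · intro z hz
          obtain ⟨u, hu, rfl⟩ := hFb hz
          exact ⟨u, ⟨hz, hu⟩, rfl⟩
      have hFcard : Nat.card F = Nat.card Fb := by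
        rw [← hFmap]
        have hinjF : Function.Injective ((QuotientGroup.mk' K).comp F.subtype) := by
          rw [injective_iff_map_eq_one]
          intro u hu
          exact Subtype.ext (hmkKP (hFP u.2) hu)
        have h1 : F.map (QuotientGroup.mk' K) = ((QuotientGroup.mk' K).comp F.subtype).range := by
          rw [MonoidHom.range_comp, Subgroup.range_subtype]
        rw [h1]
        exact Nat.card_congr (MonoidHom.ofInjective hinjF).toEquiv
      have hallow : Nat.card F = p ^ a ∨ (p ^ a = 2 ∧ Nat.card F = 4) := by rwa [hFcard]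
      have hFN : P ≤ normalizer (F : Set G) := by
        intro u hu
        refine CfsgLib.Fusion.mem_normalizer_of_conj_mem fun x hx => ?_
        exact hSC F hFP hallow x hx u (mul_mem (mul_mem hu (hFP hx)) (inv_mem hu))
      constructor
      intro z hz gb
      rw [← hFmap] at hz ⊢
      obtain ⟨f, hf, rfl⟩ := hz
      obtain ⟨g, rfl⟩ := QuotientGroup.mk'_surjective K gb
      set x := g * f * g⁻¹ with hx
      have hxE : x ∈ E := hEn.conj_mem f (hPE (hFP hf)) g
      -- conjugate `x` into `P` by an element of `K`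
      have hxp : IsPGroup p (zpowers x) := by
        have h1 : IsPGroup p (zpowers f) := hPp.to_le (zpowers_le.mpr (hFP hf))
        have h2 : zpowers x = (zpowers f).map (MulAut.conj g).toMonoidHom := by
          rw [MonoidHom.map_zpowers]
          rfl
        rw [h2]
        exact h1.map _
      obtain ⟨e, heE, he⟩ := CfsgLib.CT1.IsSylowIn_exists_conj_into hsyl (zpowers_le.mpr hxE) hxp
      have he2 : e * x * e⁻¹ ∈ P := he ⟨x, mem_zpowers x, rfl⟩
      obtain ⟨k, hk, u, hu, he'⟩ := hdec e⁻¹ (inv_mem heE)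
      have hee : e = u⁻¹ * k⁻¹ := by
        have := congrArg (·⁻¹) he'
        simpa using this
      have hy : k⁻¹ * x * k ∈ P := by
        have h1 := mul_mem (mul_mem hu he2) (inv_mem hu)
        rw [hee] at h1
        convert h1 using 1
        group
      -- `y ∈ F`
      have hyF : k⁻¹ * x * k ∈ F := by
        apply hF F hFP hallow (k⁻¹ * g)
        refine ⟨⟨f, hf, ?_⟩, hFN hy⟩
        simp only [MulEquiv.coe_toMonoidHom, MulAut.conj_apply, hx]
        group
      refine ⟨_, hyF, ?_⟩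
      have h1 : QuotientGroup.mk' K k = 1 := (QuotientGroup.eq_one_iff _).2 hk
      simp only [map_mul, map_inv, h1, hx]
      group
  -- induction
  have hKne : K ≠ E := by
    intro he
    apply hP0
    rw [eq_bot_iff, ← hKP]
    exact le_inf (hPE.trans he.ge) le_rfl
  have hKlt : Nat.card K < n := by
    rw [← hn]
    refine lt_of_le_of_ne (Subgroup.card_le_of_le hKE) ?_
    intro he
    exact hKne (Subgroup.eq_of_le_of_card_ge hKE he.ge)
  refine IH _ hKlt K rfl hGK ?_
  intro r hr R' hR'K hR'p hnd' hnc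
  by_cases hrp : r = p
  · subst hrp
    exfalso
    apply hnc
    obtain ⟨e, heE, he⟩ := CfsgLib.CT1.IsSylowIn_exists_conj_into hsyl (hR'K.trans hKE) hR'p
    have hbot : R' = ⊥ := by
      rw [eq_bot_iff]
      intro y hy
      have h1 : e * y * e⁻¹ ∈ P := he ⟨y, hy, rfl⟩
      have h2 : e * y * e⁻¹ ∈ K := hKn.conj_mem y (hR'K hy) e
      have h3 : e * y * e⁻¹ ∈ K ⊓ P := ⟨h2, h1⟩
      rw [hKP, Subgroup.mem_bot] at h3
      have h4 : y = e⁻¹ * (e * y * e⁻¹) * e := by group
      rw [h4, h3]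
      simp
    rw [hbot]
    infer_instance
  · refine h r hr R' (hR'K.trans hKE) hR'p ?_ hnc
    -- the index
    have h1 : R'.relIndex K * K.relIndex E = R'.relIndex E := Subgroup.relIndex_mul_relIndex _ _ _ hR'K hKE
    have h2 : ∃ m, K.relIndex E = p ^ m := by
      have h3 : Nat.card K * K.relIndex E = Nat.card E := CfsgLib.Trans.card_mul_relIndex hKE
      have h4 : Nat.card E = Nat.card K * Nat.card P := by
        have hc : (pResidual p E).IsComplement' (Q₀ : Subgroup E) :=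
          Subgroup.isComplement'_of_disjoint_and_mul_eq_univ (disjoint_iff.mpr hRQ) (by
            ext g
            simp only [Set.mem_mul, Set.mem_univ, iff_true]
            obtain ⟨β, hβ, τ, hτ, rfl⟩ := CfsgLib.Fusion.exists_residual_mul_sylow Q₀ g
            exact ⟨β, hβ, τ, hτ, rfl⟩)
        have h5 := hc.card_mul_card
        have h6 : Nat.card K = Nat.card (pResidual p E) := Subgroup.card_map_of_injective E.subtype_injective
        rw [h6, hPQ, h5]
      rw [h4] at h3
      have h5 : K.relIndex E = Nat.card P := Nat.eq_of_mul_eq_mul_left Nat.card_pos h3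
      obtain ⟨m, hm⟩ := IsPGroup.iff_card.1 hPp
      exact ⟨m, h5.trans hm⟩
    obtain ⟨m, hm⟩ := h2
    intro hd
    rw [← h1, hm] at hd
    rcases (Nat.Prime.dvd_mul hr).mp hd with hd1 | hd2
    · exact hnd' hd1
    · exact hrp ((Nat.prime_dvd_prime_iff_eq hr hp).mp (hr.dvd_of_dvd_pow hd2))

/-- `S3032`. -/
theorem supersolvable_of_h {G : Type u} [Group G] [Finite G] (E : Subgroup G) [E.Normal]
    (hGE : IsSupersolvable (G ⧸ E)) (h : HH E) : IsSupersolvable G :=
  super_aux _ E rfl hGE h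

end final

end CfsgLib.Local.HSub
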