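import Mathlib
import Cfsg.Agent.Lib.Local.TransOut2
import Cfsg.Agent.Lib.SS.UniqueP

/-! A subgroup contained in every nontrivial subgroup it normalizes. -/

set_option autoImplicit false
set_option linter.unusedSectionVars false
set_option linter.unusedVariables false

namespace CfsgLib.Local.InEvery

open Subgroup
open CfsgLib.Local.TransOut

universe u

theorem main {F : Type u} [Group F] [Finite F] (H : Subgroup F) (hH : H ≠ ⊥)
    (hmin : ∀ R : Subgroup F, R ≠ ⊥ → H ≤ Subgroup.normalizer (R : Set F) → H ≤ R) :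
    ∃ N : Subgroup F, N.Normal ∧ N ≠ ⊥ ∧ (∀ M : Subgroup F, M.Normal → M ≠ ⊥ → N ≤ M) ∧ IsSimpleGroup ↥N ∧
      (Subgroup.centralizer (N : Set F) = ⊥ ∨
       (H = N ∧ (Nat.card N).Prime ∧ IsCyclic ↥(Subgroup.centralizer (N : Set F)) ∧
          (∃ k : ℕ, 1 ≤ k ∧ Nat.card ↥(Subgroup.centralizer (N : Set F)) = Nat.card N ^ k) ∧
          (∃ g : F, Subgroup.centralizer (N : Set F) ⊔ Subgroup.zpowers g = ⊤) ∧
          (Subgroup.centralizer (N : Set F)).index ∣ Nat.card N - 1) ∨
       (H = N ∧ Nat.card N = 2 ∧ Subgroup.centralizer (N : Set F) = ⊤ ∧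
          ∃ k : ℕ, 1 ≤ k ∧ Nonempty (F ≃* QuaternionGroup (2 ^ k)))) := by
  classical
  set N : Subgroup F := Subgroup.normalClosure (H : Set F) with hNdef
  haveI hNn : N.Normal := Subgroup.normalClosure_normal
  have hHN : H ≤ N := Subgroup.le_normalClosure
  have hNne : N ≠ ⊥ := fun h => hH (le_bot_iff.mp (h ▸ hHN))
  have hNmin : ∀ M : Subgroup F, M.Normal → M ≠ ⊥ → N ≤ M := by
    intro M hM hM1
    apply Subgroup.normalClosure_le_normal
    apply hmin M hM1
    rw [Subgroup.normalizer_eq_top_iff.mpr hM]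
    exact le_top
  haveI hNnt : Nontrivial N := (Subgroup.nontrivial_iff_ne_bot N).mpr hNne
  have hNs : IsSimpleGroup ↥N := by
    refine ⟨?_⟩
    intro K hK
    by_cases hK1 : K = ⊥
    · exact Or.inl hK1
    right
    set K₁ : Subgroup F := K.map N.subtype with hK₁
    have hK₁1 : K₁ ≠ ⊥ := by
      intro h
      apply hK1
      have := (Subgroup.map_eq_bot_iff_of_injective K N.subtype_injective).mp h
      exact this
    have hK₁N : K₁ ≤ N := Subgroup.map_subtype_le K
    have hconj : ∀ g : F, H ≤ Hg K₁ g := by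
      intro g
      apply hmin
      · intro h
        apply hK₁1
        exact (Subgroup.map_eq_bot_iff_of_injective K₁ (MulAut.conj g).injective).mp h
      · intro h hh
        apply mem_normalizer_of_forall
        intro l hl
        rw [mem_Hg] at hl ⊢
        have hhn : g⁻¹ * h * g ∈ N := hNn.conj_mem' h (hHN hh) g
        obtain ⟨k, hk, hke⟩ := hl
        have e : g⁻¹ * (h * l * h⁻¹) * g = (g⁻¹ * h * g) * (g⁻¹ * l * g) * (g⁻¹ * h * g)⁻¹ := by group
        rw [e, ← hke]
        exact ⟨_, hK.conj_mem k hk ⟨_, hhn⟩, rfl⟩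
    have hcore : N ≤ K₁.normalCore := by
      apply Subgroup.normalClosure_le_normal
      intro h hh
      intro g
      have h1 := hconj g⁻¹ hh
      rw [mem_Hg] at h1
      simpa using h1
    have hNK : N ≤ K₁ := hcore.trans (Subgroup.normalCore_le K₁)
    rw [eq_top_iff]
    intro n _
    obtain ⟨k, hk, hke⟩ := hNK n.2
    have : k = n := Subtype.ext hke
    rwa [← this]
  refine ⟨N, hNn, hNne, hNmin, hNs, ?_⟩
  set C : Subgroup F := Subgroup.centralizer (N : Set F) with hC
  by_cases hC1 : C = ⊥
  · exact Or.inl hC1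
  right
  haveI hCn : C.Normal := Subgroup.normal_centralizer
  have hNC : N ≤ C := hNmin C hCn hC1
  have hcomm : ∀ a b : N, a * b = b * a := by
    intro a b
    apply Subtype.ext
    have := (Subgroup.mem_centralizer_iff.mp (hNC b.2)) a a.2
    exact this
  letI : CommGroup N := { (inferInstance : Group N) with mul_comm := hcomm }
  have hprime : (Nat.card N).Prime := hNs.prime_card
  set p := Nat.card N with hp
  haveI hpf : Fact p.Prime := ⟨hprime⟩
  have hHeq : H = N := by
    apply le_antisymm hHN
    have hnorm : (H.subgroupOf N).Normal := by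
      constructor
      intro x hx g
      have : g * x * g⁻¹ = x := by
        rw [mul_comm g x, mul_assoc, mul_inv_cancel, mul_one]
      rw [this]; exact hx
    rcases hNs.eq_bot_or_eq_top_of_normal _ hnorm with h | h
    · exfalso
      apply hH
      rw [eq_bot_iff]
      intro x hx
      have h1 : (⟨x, hHN hx⟩ : N) ∈ H.subgroupOf N := hx
      rw [h, Subgroup.mem_bot] at h1
      exact congrArg Subtype.val h1
    · intro n hn
      have : (⟨n, hn⟩ : N) ∈ H.subgroupOf N := by rw [h]; exact mem_top _
      exact this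
  -- every nontrivial subgroup of `C` contains `N`
  have hminC : ∀ R : Subgroup F, R ≤ C → R ≠ ⊥ → N ≤ R := by
    intro R hRC hR1
    rw [← hHeq]
    apply hmin R hR1
    intro h hh
    apply mem_normalizer_of_forall
    intro r hr
    have h1 := (Subgroup.mem_centralizer_iff.mp (hRC hr)) h (hHN hh)
    have : h * r * h⁻¹ = r := by
      rw [h1]; group
    rwa [this]
  have hcardN_dvd : ∀ R : Subgroup F, N ≤ R → p ∣ Nat.card R := fun R hR => by
    rw [hp]
    exact Subgroup.card_dvd_of_le hR
  -- `C` is a `p`-group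
  have hCcard : Nat.card C = p ^ (Nat.card C).primeFactorsList.length := by
    apply Nat.eq_prime_pow_of_unique_prime_dvd Nat.card_pos.ne'
    intro q hq hqd
    haveI : Fact q.Prime := ⟨hq⟩
    obtain ⟨x, hx⟩ := exists_prime_orderOf_dvd_card' q hqd
    have hxo : orderOf (x : F) = q := by rw [Subgroup.orderOf_coe]; exact hx
    have h1 := hminC (zpowers (x : F)) (zpowers_le.mpr x.2) (by
      intro h
      rw [Subgroup.zpowers_eq_bot] at h
      rw [h, orderOf_one] at hxo
      exact hq.one_lt.ne hxo)
    have h2 := hcardN_dvd _ h1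
    rw [Nat.card_zpowers, hxo] at h2
    exact ((Nat.prime_dvd_prime_iff_eq hprime hq).mp h2).symm
  have hCp : IsPGroup p C := IsPGroup.iff_card.mpr ⟨_, hCcard⟩
  have hkpos : 1 ≤ (Nat.card C).primeFactorsList.length := by
    by_contra hlt
    have h0 : (Nat.card C).primeFactorsList.length = 0 := by omega
    rw [h0, pow_zero] at hCcard
    exact hC1 (Subgroup.card_eq_one.mp hCcard)
  have huniq : ∀ A B : Subgroup C, Nat.card A = p → Nat.card B = p → A = B := by
    have hkey : ∀ A : Subgroup C, Nat.card A = p → A.map C.subtype = N := by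
      intro A hA
      have hA1 : A.map C.subtype ≠ ⊥ := by
        intro h
        have h2 := (Subgroup.map_eq_bot_iff_of_injective A C.subtype_injective).mp h
        rw [h2, Subgroup.card_bot] at hA
        exact hprime.one_lt.ne hA
      have h1 := hminC _ (Subgroup.map_subtype_le A) hA1
      symm
      apply Subgroup.eq_of_le_of_card_ge h1
      rw [Subgroup.card_map_of_injective C.subtype_injective, hA]
    intro A B hA hB
    apply Subgroup.map_injective C.subtype_injective
    rw [hkey A hA, hkey B hB]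
  -- the action on `N`
  let φ : F →* MulAut N := MulAut.conjNormal
  have hφ : ∀ g (n : N), ((φ g n : N) : F) = g * n * g⁻¹ := fun g n => MulAut.conjNormal_apply g n
  have hker : φ.ker = C := by
    ext g
    rw [MonoidHom.mem_ker, hC, Subgroup.mem_centralizer_iff]
    constructor
    · intro h n hn
      have h1 := hφ g ⟨n, hn⟩
      rw [h] at h1
      change n = g * n * g⁻¹ at h1
      calc n * g = (g * n * g⁻¹) * g := by rw [← h1]
        _ = g * n := by group
    · intro h
      ext n
      rw [hφ]
      change g * n * g⁻¹ = n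
      rw [← h n n.2]
      group
  haveI hNcyc : IsCyclic N := isCyclic_of_prime_card rfl
  have hindex : C.index ∣ p - 1 := by
    have h1 : C.index = Nat.card φ.range := by
      rw [← hker, Subgroup.index_ker]
    rw [h1]
    have h2 : Nat.card (MulAut N) = p - 1 := by
      rw [IsCyclic.card_mulAut, Nat.totient_prime hprime]
    rw [← h2]
    exact Subgroup.card_subgroup_dvd_card _
  have hgen : ∃ g : F, C ⊔ zpowers g = ⊤ := by
    have h1 : IsCyclic (MulAut N) := by
      have e := IsCyclic.mulAutMulEquiv N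
      have h0 : ∀ q : ℕ, q.Prime → IsCyclic (ZMod q)ˣ := by
        intro q hq
        haveI : Fact q.Prime := ⟨hq⟩
        infer_instance
      have : IsCyclic (ZMod (Nat.card N))ˣ := h0 _ hprime
      exact isCyclic_of_injective e.toMonoidHom e.injective
    have h2 : IsCyclic φ.range := Subgroup.isCyclic _
    obtain ⟨⟨r, g, rfl⟩, hr⟩ := h2.exists_generator
    refine ⟨g, ?_⟩
    rw [eq_top_iff]
    intro f _
    obtain ⟨k, hk⟩ := hr ⟨φ f, f, rfl⟩
    have hk' : φ f = φ g ^ k := (congrArg Subtype.val hk).symm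
    have h3 : f * (g ^ k)⁻¹ ∈ C := by
      rw [← hker, MonoidHom.mem_ker, map_mul, map_inv, map_zpow, hk', mul_inv_cancel]
    have e : f = (f * (g ^ k)⁻¹) * g ^ k := by group
    rw [e]
    exact mul_mem (mem_sup_left h3) (mem_sup_right (zpow_mem (mem_zpowers g) k))
  have hcyc_alt : IsCyclic C ∨ (p = 2 ∧ ∃ n : ℕ, 1 ≤ n ∧ Nonempty (C ≃* QuaternionGroup (2 ^ n))) := by
    rcases CfsgLib.SS.unique_prime_subgroup p hCp huniq with h | ⟨h2, n, ⟨e⟩⟩
    · exact Or.inl h
    · by_cases hn : n = 0
      · left
        subst hn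
        have : IsCyclic (QuaternionGroup (2 ^ 0)) := by
          rw [pow_zero]
          exact QuaternionGroup.quaternionGroup_one_isCyclic
        exact isCyclic_of_injective e.toMonoidHom e.injective
      · exact Or.inr ⟨h2, n, by omega, ⟨e⟩⟩
  rcases hcyc_alt with hcyc | ⟨hp2, n, hn, ⟨e⟩⟩
  · left
    exact ⟨hHeq, hprime, hcyc, ⟨_, hkpos, hCcard⟩, hgen, hindex⟩
  · right
    have hCtop : C = ⊤ := by
      rw [hp2] at hindex
      have : C.index = 1 := Nat.dvd_one.mp hindex
      exact Subgroup.index_eq_one.mp this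
    refine ⟨hHeq, hp2, hCtop, n, hn, ⟨?_⟩⟩
    exact (Subgroup.topEquiv.symm.trans (MulEquiv.subgroupCongr hCtop.symm)).trans e

end CfsgLib.Local.InEvery
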