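import Mathlib
import Cfsg.Prelude.Def_Solvable
import Cfsg.Agent.Lib.FGS.FrobThm
import Cfsg.Agent.Lib.OOL.GT4

/-! An element `x` of a Sylow subgroup that is its only conjugate there and centralizes all the
`p'`-subgroups it normalizes is central.  The proof goes through Frobenius' theorem. -/

set_option autoImplicit false
set_option linter.unusedSectionVars false
set_option linter.unusedVariables false

namespace CfsgLib.Local.IsolFrob

open Subgroup
open scoped Pointwise

universe u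

theorem exists_conj_sylow {G : Type u} [Group G] [Finite G] {p : ℕ} [Fact p.Prime] (S : Sylow p G)
    (Q : Subgroup G) (hQ : IsPGroup p Q) : ∃ c : G, ∀ q ∈ Q, c⁻¹ * q * c ∈ (S : Subgroup G) := by
  obtain ⟨S', hS'⟩ := hQ.exists_le_sylow
  obtain ⟨c, hc⟩ := MulAction.exists_smul_eq G S S'
  refine ⟨c, fun q hq => ?_⟩
  have h1 : q ∈ (S' : Subgroup G) := hS' hq
  rw [← hc] at h1
  change q ∈ MulAut.conj c • (S : Subgroup G) at h1
  rw [Subgroup.mem_pointwise_smul_iff_inv_smul_mem] at h1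
  have : (MulAut.conj c)⁻¹ • q = c⁻¹ * q * c := by
    rw [← map_inv, MulAut.smul_def, MulAut.conj_apply, inv_inv]
  rwa [this] at h1

theorem main (n : ℕ) : ∀ (G : Type u) [Group G] [Finite G] (p : ℕ) [Fact p.Prime], Nat.card G = n →
    ∀ (S : Sylow p G) (x : G), x ∈ S → (∀ g : G, g⁻¹ * x * g ∈ S → g⁻¹ * x * g = x) →
    (∀ H : Subgroup G, (Nat.card H).Coprime p → (∀ h ∈ H, x * h * x⁻¹ ∈ H) → ∀ h ∈ H, x * h = h * x) →
    x ∈ Subgroup.center G := by
  induction n using Nat.strong_induction_on with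
  | _ n IH =>
  intro G _ _ p _ hn S x hx hU hb
  classical
  by_contra hxc
  have hpp : p.Prime := Fact.out
  -- `x` is a `p`-element
  have hxp : ∃ k : ℕ, x ^ p ^ k = 1 := by
    obtain ⟨k, hk⟩ := (IsPGroup.iff_orderOf.mp S.isPGroup') ⟨x, hx⟩
    refine ⟨k, ?_⟩
    rw [Subgroup.orderOf_mk] at hk
    rw [← hk]
    exact pow_orderOf_eq_one x
  -- `S` centralizes `x`
  have hSC : ∀ s ∈ (S : Subgroup G), x * s = s * x := by
    intro s hs
    have h1 : s⁻¹ * x * s ∈ (S : Subgroup G) :=
      mul_mem (mul_mem (inv_mem hs) hx) hs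
    have h2 := hU s h1
    calc x * s = s * (s⁻¹ * x * s) := by group
      _ = s * x := by rw [h2]
  -- proper subgroups
  have hprop : ∀ K : Subgroup G, K ≠ ⊤ → x ∈ K → ∀ k ∈ K, x * k = k * x := by
    intro K hK hxK
    have hcard : Nat.card K < n := by
      rw [← hn]
      refine lt_of_le_of_ne (Subgroup.card_le_card_group K) ?_
      exact fun h => hK (Subgroup.eq_top_of_card_eq K h)
    have hzp : IsPGroup p (zpowers (⟨x, hxK⟩ : K)) := by
      obtain ⟨k, hk⟩ := hxp
      have h2 : orderOf (⟨x, hxK⟩ : K) ∣ p ^ k := by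
        apply orderOf_dvd_of_pow_eq_one
        apply Subtype.ext
        simpa using hk
      obtain ⟨j, -, hj⟩ := (Nat.dvd_prime_pow hpp).mp h2
      rw [IsPGroup.iff_card]
      exact ⟨j, by rw [Nat.card_zpowers, hj]⟩
    obtain ⟨SK, hSK⟩ := hzp.exists_le_sylow
    have hxSK : (⟨x, hxK⟩ : K) ∈ (SK : Subgroup K) := hSK (mem_zpowers _)
    obtain ⟨c, hc⟩ := exists_conj_sylow S ((SK : Subgroup K).map K.subtype) (SK.isPGroup'.map _)
    have hcx : c⁻¹ * x * c = x := by
      apply hU
      exact hc x ⟨⟨x, hxK⟩, hxSK, rfl⟩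
    have hcent := IH _ hcard K p rfl SK ⟨x, hxK⟩ hxSK ?_ ?_
    · intro k hk
      have h1 := (Subgroup.mem_center_iff.mp hcent) ⟨k, hk⟩
      exact (congrArg Subtype.val h1).symm
    · intro k hk
      have h1 : c⁻¹ * (k⁻¹.1 * x * k.1) * c ∈ (S : Subgroup G) := by
        apply hc
        exact ⟨k⁻¹ * ⟨x, hxK⟩ * k, hk, rfl⟩
      have h2 := hU (k.1 * c) (by
        have e : (k.1 * c)⁻¹ * x * (k.1 * c) = c⁻¹ * (k⁻¹.1 * x * k.1) * c := by
          simp only [mul_inv_rev, InvMemClass.coe_inv]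
          group
        rw [e]
        exact h1)
      apply Subtype.ext
      have e2 : (k⁻¹ * ⟨x, hxK⟩ * k : K).1 = k.1⁻¹ * x * k.1 := by simp
      rw [e2]
      have e3 : (k.1 * c)⁻¹ * x * (k.1 * c) = c⁻¹ * (k.1⁻¹ * x * k.1) * c := by group
      rw [e3] at h2
      calc k.1⁻¹ * x * k.1 = c * (c⁻¹ * (k.1⁻¹ * x * k.1) * c) * c⁻¹ := by group
        _ = c * x * c⁻¹ := by rw [h2]
        _ = c * (c⁻¹ * x * c) * c⁻¹ := by rw [hcx]
        _ = x := by group
    · intro H hHc hHi h hh
      have hcop : (Nat.card (H.map K.subtype)).Coprime p := by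
        rwa [Nat.card_congr (Subgroup.equivMapOfInjective H K.subtype K.subtype_injective).symm.toEquiv]
      have h1 := hb (H.map K.subtype) hcop (by
        rintro _ ⟨u, hu, rfl⟩
        exact ⟨_, hHi u hu, rfl⟩) h.1 ⟨h, hh, rfl⟩
      exact Subtype.ext h1
  -- conjugates generate
  have hgen : ∀ g : G, g * x * g⁻¹ ≠ x → zpowers x ⊔ zpowers (g * x * g⁻¹) = ⊤ := by
    intro g hg
    by_contra hne
    set y := g * x * g⁻¹ with hy
    have hyk : y ^ p ^ (Classical.choose hxp) = 1 := by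
      rw [hy, conj_pow, Classical.choose_spec hxp]
      group
    have hcomm : x * y = y * x :=
      hprop _ hne (mem_sup_left (mem_zpowers x)) y (mem_sup_right (mem_zpowers y))
    have hzx : IsPGroup p (zpowers x) := by
      obtain ⟨k, hk⟩ := hxp
      rw [IsPGroup.iff_card]
      obtain ⟨j, -, hj⟩ := (Nat.dvd_prime_pow hpp).mp (orderOf_dvd_of_pow_eq_one hk)
      exact ⟨j, by rw [Nat.card_zpowers, hj]⟩
    have hzy : IsPGroup p (zpowers y) := by
      rw [IsPGroup.iff_card]
      obtain ⟨j, -, hj⟩ := (Nat.dvd_prime_pow hpp).mp (orderOf_dvd_of_pow_eq_one hyk)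
      exact ⟨j, by rw [Nat.card_zpowers, hj]⟩
    have hQ : IsPGroup p ((zpowers x ⊔ zpowers y : Subgroup G)) := by
      apply IsPGroup.to_sup_of_normal_right' hzx hzy
      rw [Subgroup.zpowers_le]
      rw [Subgroup.mem_normalizer_iff'']
      intro h
      have hc' : ∀ k : ℤ, x⁻¹ * y ^ k * x = y ^ k := by
        intro k
        have : Commute x (y ^ k) := (Commute.zpow_right hcomm k)
        rw [mul_assoc, this.eq.symm]
        group
      constructor
      · rintro ⟨k, rfl⟩
        refine ⟨k, ?_⟩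
        simp only [hc']
      · rintro ⟨k, hk⟩
        refine ⟨k, ?_⟩
        have : x⁻¹ * h * x = y ^ k := by simpa using hk.symm
        have h2 := hc' k
        have : h = x * y ^ k * x⁻¹ := by
          rw [← this]; group
        rw [this, ← h2]
        group
    obtain ⟨c, hc⟩ := exists_conj_sylow S _ hQ
    have h1 := hU c (hc x (mem_sup_left (mem_zpowers x)))
    have h2 := hc y (mem_sup_right (mem_zpowers y))
    have h3 := hU (g⁻¹ * c) (by
      have e : (g⁻¹ * c)⁻¹ * x * (g⁻¹ * c) = c⁻¹ * y * c := by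
        rw [hy]; group
      rw [e]; exact h2)
    apply hg
    have e : (g⁻¹ * c)⁻¹ * x * (g⁻¹ * c) = c⁻¹ * y * c := by
      rw [hy]; group
    rw [e] at h3
    calc y = c * (c⁻¹ * y * c) * c⁻¹ := by group
      _ = c * x * c⁻¹ := by rw [h3]
      _ = c * (c⁻¹ * x * c) * c⁻¹ := by rw [h1]
      _ = x := by group
  -- the centre
  set Z := Subgroup.center G with hZ
  set C := Subgroup.centralizer ({x} : Set G) with hC
  have hmemC : ∀ g, g ∈ C ↔ x * g = g * x := by
    intro g
    rw [hC, Subgroup.mem_centralizer_singleton_iff]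
    exact eq_comm
  have hZC : Z ≤ C := by
    intro z hz
    rw [hmemC]
    exact (Subgroup.mem_center_iff.mp hz x)
  -- elements centralizing two conjugates are central
  have hcentral : ∀ g : G, g ∉ C → ∀ u, u ∈ C → g⁻¹ * u * g ∈ C → u ∈ Z := by
    intro g hg u hu hgu
    have hg' : g * x * g⁻¹ ≠ x := by
      intro h
      apply hg
      rw [hmemC]
      calc x * g = (g * x * g⁻¹) * g := by rw [h]
        _ = g * x := by group
    have h1 := hgen g hg'
    have h2 : u ∈ Subgroup.centralizer ((zpowers x ⊔ zpowers (g * x * g⁻¹) : Subgroup G) : Set G) := by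
      rw [Subgroup.mem_centralizer_iff]
      intro k hk
      have h3 : zpowers x ⊔ zpowers (g * x * g⁻¹) ≤ Subgroup.centralizer ({u} : Set G) := by
        rw [sup_le_iff, Subgroup.zpowers_le, Subgroup.zpowers_le]
        constructor
        · rw [Subgroup.mem_centralizer_singleton_iff]
          exact ((hmemC u).1 hu)
        · rw [Subgroup.mem_centralizer_singleton_iff]
          have h4 := (hmemC _).1 hgu
          have e1 : g * x * g⁻¹ * u = g * (x * (g⁻¹ * u * g)) * g⁻¹ := by group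
          have e2 : u * (g * x * g⁻¹) = g * ((g⁻¹ * u * g) * x) * g⁻¹ := by group
          rw [e1, e2, h4]
      have h5 := h3 hk
      rw [Subgroup.mem_centralizer_singleton_iff] at h5
      exact h5
    rw [h1] at h2
    rw [hZ, Subgroup.mem_center_iff]
    intro k
    have := (Subgroup.mem_centralizer_iff.mp h2) k (by
      simp)
    exact this
  -- quotient
  let f := QuotientGroup.mk' Z
  have hf : Function.Surjective f := QuotientGroup.mk'_surjective Z
  have hfker : ∀ g, f g = 1 ↔ g ∈ Z := by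
    intro g
    rw [← MonoidHom.mem_ker, QuotientGroup.ker_mk']
  set Cb : Subgroup (G ⧸ Z) := C.map f with hCb
  have hmemCb : ∀ g, f g ∈ Cb ↔ g ∈ C := by
    intro g
    constructor
    · rintro ⟨c, hc, hcg⟩
      have h1 : c⁻¹ * g ∈ Z := by
        rw [← hfker, map_mul, map_inv, hcg, inv_mul_cancel]
      have h2 : g = c * (c⁻¹ * g) := by group
      rw [h2]
      exact mul_mem hc (hZC h1)
    · intro h
      exact ⟨g, h, rfl⟩
  have hxnC : ∃ g, g ∉ C := by
    by_contra hcon
    push Not at hcon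
    apply hxc
    rw [Subgroup.mem_center_iff]
    intro g
    exact ((hmemC g).1 (hcon g)).symm
  have hFC : Cfsg.IsFrobeniusComplement Cb := by
    refine ⟨?_, ?_, ?_⟩
    · intro h
      have h1 : f x ∈ Cb := (hmemCb x).2 ((hmemC x).2 rfl)
      rw [h, Subgroup.mem_bot, hfker] at h1
      exact hxc h1
    · intro h
      obtain ⟨g, hg⟩ := hxnC
      apply hg
      rw [← hmemCb, h]
      exact mem_top _
    · intro gb hgb
      rw [eq_bot_iff]
      rintro ub ⟨hu1, hu2⟩
      obtain ⟨g, rfl⟩ := hf gb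
      obtain ⟨u, rfl⟩ := hf ub
      have hgC : g ∉ C := fun h => hgb ((hmemCb g).2 h)
      have huC : u ∈ C := (hmemCb u).1 hu1
      have hu2' : f u ∈ MulAut.conj (f g) • Cb := hu2
      rw [Subgroup.mem_pointwise_smul_iff_inv_smul_mem] at hu2'
      have e : (MulAut.conj (f g))⁻¹ • f u = f (g⁻¹ * u * g) := by
        rw [← map_inv, MulAut.smul_def, MulAut.conj_apply, inv_inv]
        simp [map_mul, map_inv]
      rw [e] at hu2'
      have h1 := (hmemCb _).1 hu2'
      rw [Subgroup.mem_bot, hfker]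
      exact hcentral g hgC u huC h1
  obtain ⟨Nb, -, hNbn, hNbc⟩ := CfsgLib.FGS.exists_frobenius_kernel Cb hFC
  haveI := hNbn
  -- the kernel has order prime to `p`
  have hNbcard : (Nat.card Nb).Coprime p := by
    have h1 : Cb.index = Nat.card Nb := hNbc.index_eq_card
    rw [← h1]
    have hSb : ((S : Subgroup G).map f) ≤ Cb := by
      rintro _ ⟨s, hs, rfl⟩
      exact (hmemCb s).2 ((hmemC s).2 (hSC s hs))
    have h2 : Cb.index ∣ ((S : Subgroup G).map f).index := Subgroup.index_dvd_of_le hSb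
    have h3 : ¬ p ∣ ((S : Subgroup G).map f).index := by
      have := (S.mapSurjective hf).not_dvd_index
      exact this
    rw [Nat.coprime_comm, Nat.Prime.coprime_iff_not_dvd hpp]
    exact fun h => h3 (h.trans h2)
  set K : Subgroup G := Nb.comap f with hK
  haveI hKn : K.Normal := hNbn.comap f
  have hZK : Z ≤ K := by
    intro z hz
    change f z ∈ Nb
    rw [(hfker z).2 hz]
    exact one_mem _
  -- Sylow of `K` is central
  obtain ⟨T₀⟩ : Nonempty (Sylow p K) := inferInstance
  have hT₀Z : ∀ t ∈ (T₀ : Subgroup K), t.1 ∈ Z := by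
    intro t ht
    have h1 : ∃ k, t ^ p ^ k = 1 := by
      obtain ⟨k, hk⟩ := (IsPGroup.iff_orderOf.mp T₀.isPGroup') ⟨t, ht⟩
      refine ⟨k, ?_⟩
      rw [Subgroup.orderOf_mk] at hk
      rw [← hk]
      exact pow_orderOf_eq_one t
    obtain ⟨k, hk⟩ := h1
    have h2 : (f t.1) ^ p ^ k = 1 := by
      rw [← map_pow]
      have := congrArg Subtype.val hk
      simp only [SubmonoidClass.coe_pow, OneMemClass.coe_one] at this
      rw [this, map_one]
    have h3 : (⟨f t.1, t.2⟩ : Nb) ^ p ^ k = 1 := Subtype.ext h2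
    have h4 : (⟨f t.1, t.2⟩ : Nb) ^ Nat.card Nb = 1 := pow_card_eq_one'
    have h5 : (⟨f t.1, t.2⟩ : Nb) ^ (Nat.gcd (p ^ k) (Nat.card Nb)) = 1 :=
      pow_gcd_eq_one.mpr ⟨h3, h4⟩
    have h6 : Nat.gcd (p ^ k) (Nat.card Nb) = 1 :=
      Nat.Coprime.pow_left k hNbcard.symm
    rw [h6, pow_one] at h5
    rw [← hfker]
    exact congrArg Subtype.val h5
  set T : Subgroup G := (T₀ : Subgroup K).map K.subtype with hT
  have hTZ : T ≤ Z := by
    rintro _ ⟨t, ht, rfl⟩
    exact hT₀Z t ht
  have hTn : T.Normal := by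
    constructor
    intro t ht g
    have h1 := (Subgroup.mem_center_iff.mp (hTZ ht)) g
    have : g * t * g⁻¹ = t := by
      rw [h1]; group
    rw [this]; exact ht
  have hTK : T ≤ K := Subgroup.map_subtype_le _
  have hTp : IsPGroup p T := T₀.isPGroup'.map _
  have hKm : ∀ b ∈ K, ∃ m, 0 < m ∧ m.Coprime p ∧ b ^ m ∈ T := by
    intro b hb'
    haveI hT₀n : (T₀ : Subgroup K).Normal := by
      constructor
      intro t ht g
      have h1 := (Subgroup.mem_center_iff.mp (hT₀Z t ht)) g.1
      have : g * t * g⁻¹ = t := by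
        apply Subtype.ext
        simp only [Subgroup.coe_mul, Subgroup.coe_inv]
        rw [h1]; group
      rw [this]; exact ht
    refine ⟨(T₀ : Subgroup K).index, Nat.pos_of_ne_zero (Subgroup.index_ne_zero_of_finite), ?_, ?_⟩
    · rw [Nat.coprime_comm, Nat.Prime.coprime_iff_not_dvd hpp]
      exact T₀.not_dvd_index
    · have := Subgroup.pow_index_mem (T₀ : Subgroup K) (⟨b, hb'⟩ : K)
      exact ⟨_, this, rfl⟩
  obtain ⟨K₀, hK₀c, hK₀K, hK₀⟩ := CfsgLib.OOL.exists_pprime_complement T K hTK hTp hKm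
  -- `x` normalizes `K₀`
  have hK₀i : ∀ k ∈ K₀, x * k * x⁻¹ ∈ K₀ := by
    intro k hk
    have h1 : x * k * x⁻¹ ∈ K := hKn.conj_mem k (hK₀K hk) x
    obtain ⟨h, hh, k', hk', he⟩ := hK₀ _ h1
    have hhc : ∀ m : ℕ, (h * k') ^ m = h ^ m * k' ^ m := by
      intro m
      have hc : Commute h k' := (Subgroup.mem_center_iff.mp (hTZ hh)) k' |>.symm
      exact hc.mul_pow m
    have h2 : (x * k * x⁻¹) ^ Nat.card K₀ = 1 := by
      rw [conj_pow]
      have : k ^ Nat.card K₀ = 1 := by
        have := pow_card_eq_one' (x := (⟨k, hk⟩ : K₀))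
        exact congrArg Subtype.val this
      rw [this]; group
    rw [he, hhc] at h2
    have h3 : k' ^ Nat.card K₀ = 1 := by
      have := pow_card_eq_one' (x := (⟨k', hk'⟩ : K₀))
      exact congrArg Subtype.val this
    rw [h3, mul_one] at h2
    have h4 : h = 1 := by
      obtain ⟨j, hj⟩ := (IsPGroup.iff_orderOf.mp hTp) ⟨h, hh⟩
      rw [Subgroup.orderOf_mk] at hj
      have h5 : h ^ p ^ j = 1 := by
        rw [← hj]; exact pow_orderOf_eq_one h
      have h6 := pow_gcd_eq_one.mpr ⟨h5, h2⟩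
      have h7 : Nat.gcd (p ^ j) (Nat.card K₀) = 1 := Nat.Coprime.pow_left j hK₀c.symm
      rwa [h7, pow_one] at h6
    rw [he, h4, one_mul]
    exact hk'
  have hK₀comm := hb K₀ hK₀c hK₀i
  -- hence `K ≤ C`
  have hKC : K ≤ C := by
    intro r hr
    obtain ⟨h, hh, k, hk, rfl⟩ := hK₀ r hr
    exact mul_mem (hZC (hTZ hh)) ((hmemC k).2 (hK₀comm k hk))
  have hNbCb : Nb ≤ Cb := by
    intro y hy
    obtain ⟨g, rfl⟩ := hf y
    exact (hmemCb g).2 (hKC hy)
  have hdis := hNbc.disjoint
  have hNbbot : Nb = ⊥ := by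
    rw [eq_bot_iff]
    intro y hy
    have := hdis.le_bot (mem_inf.mpr ⟨hy, hNbCb hy⟩)
    exact this
  have h8 : Cb.index = Nat.card Nb := hNbc.index_eq_card
  rw [hNbbot, Subgroup.card_bot] at h8
  rw [Subgroup.index_eq_one] at h8
  exact hFC.2.1 h8

end CfsgLib.Local.IsolFrob
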