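import Cfsg.Agent.Lib.Local.CoprimeGen
import Cfsg.Agent.Lib.FGS.IdxP

/-! `p'`-subgroups normalized by overgroups of a large subgroup. -/

set_option autoImplicit false
set_option linter.style.haveILetI false
set_option linter.unusedSectionVars false

namespace CfsgLib.Local
open Cfsg Subgroup CfsgLib.Solv
open scoped commutatorElement

variable {G : Type*} [Group G] [Finite G] {p : ℕ} [Fact p.Prime]

theorem large_centralizer_trivial (Q : Subgroup G) (hQp : IsPGroup p Q) (hlarge : IsLarge Q)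
    (G₁ : Subgroup G) (hQG : Q ≤ G₁) (R : Subgroup G) (hR : (Nat.card R).Coprime p)
    (hGR : G₁ ≤ normalizer (R : Set G)) {x g : G} (hx : x ≠ 1) (hg : g ∈ G₁)
    (hz : g * x * g⁻¹ ∈ Q ⊓ centralizer (Q : Set G)) : R ⊓ centralizer ({x} : Set G) = ⊥ := by
  set z := g * x * g⁻¹ with hzdef
  obtain ⟨hzQ, hzC⟩ := Subgroup.mem_inf.mp hz
  have hz1 : z ≠ 1 := by
    intro h
    apply hx
    have : g⁻¹ * z * g = 1 := by rw [h]; group
    simpa [hzdef, mul_assoc] using this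
  have hRQ : R ⊓ Q = ⊥ := by
    obtain ⟨n, hn⟩ := IsPGroup.iff_card.mp hQp
    apply Subgroup.inf_eq_bot_of_coprime
    rw [hn]
    exact Nat.Coprime.pow_right _ hR
  have hN : normalizer ((zpowers z : Subgroup G) : Set G) ≤ normalizer (Q : Set G) :=
    hlarge.2 _ ((Subgroup.zpowers_le).mpr hzC) (by
      rwa [Ne, Subgroup.zpowers_eq_bot])
  have hY : ∀ y ∈ R, y * z = z * y → y = 1 := by
    intro y hyR hyz
    have hyN : y ∈ normalizer (Q : Set G) := by
      apply hN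
      apply Subgroup.centralizer_le_normalizer
      rw [Subgroup.mem_centralizer_iff]
      intro c hc
      obtain ⟨n, rfl⟩ := Subgroup.mem_zpowers_iff.mp hc
      have hc' : Commute y z := hyz
      exact (hc'.zpow_right n).eq.symm
    have hyC : y ∈ centralizer (Q : Set G) := by
      rw [Subgroup.mem_centralizer_iff]
      intro q hq
      have h1 : y * q * y⁻¹ * q⁻¹ ∈ Q := mul_mem ((mem_normalizer_iff.mp hyN q).mp hq) (inv_mem hq)
      have h2 : y * q * y⁻¹ * q⁻¹ ∈ R := by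
        have h3 : q * y⁻¹ * q⁻¹ ∈ R :=
          (mem_normalizer_iff.mp (hGR (hQG hq)) y⁻¹).mp (inv_mem hyR)
        have e : y * q * y⁻¹ * q⁻¹ = y * (q * y⁻¹ * q⁻¹) := by group
        rw [e]
        exact mul_mem hyR h3
      have h4 : y * q * y⁻¹ * q⁻¹ ∈ R ⊓ Q := Subgroup.mem_inf.mpr ⟨h2, h1⟩
      rw [hRQ, Subgroup.mem_bot] at h4
      have h5 : y * q = q * y := by
        have h6 : y * q * y⁻¹ = q := by
          rw [mul_inv_eq_one] at h4
          exact h4
        rw [mul_inv_eq_iff_eq_mul] at h6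
        exact h6
      exact h5.symm
    have h7 : y ∈ R ⊓ Q := Subgroup.mem_inf.mpr ⟨hyR, hlarge.1 hyC⟩
    rwa [hRQ, Subgroup.mem_bot] at h7
  rw [eq_bot_iff]
  intro y hy
  obtain ⟨hyR, hyx⟩ := Subgroup.mem_inf.mp hy
  have hyx' : y * x = x * y := Subgroup.mem_centralizer_singleton_iff.mp hyx
  have h1 : g * y * g⁻¹ ∈ R := (mem_normalizer_iff.mp (hGR hg) y).mp hyR
  have h2 := hY _ h1 (by
    calc g * y * g⁻¹ * z = g * (y * x) * g⁻¹ := by rw [hzdef]; group
      _ = g * (x * y) * g⁻¹ := by rw [hyx']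
      _ = z * (g * y * g⁻¹) := by rw [hzdef]; group)
  rw [Subgroup.mem_bot]
  have h3 : y = g⁻¹ * (g * y * g⁻¹) * g := by group
  rw [h3, h2]
  group

/-- `S3003`. -/
theorem large_p_prime_trivial (Q : Subgroup G) (hQp : IsPGroup p Q) (hlarge : IsLarge Q)
    (G₁ : Subgroup G) (hQG : Q ≤ G₁) (R : Subgroup G) (hR : (Nat.card R).Coprime p)
    (hGR : G₁ ≤ normalizer (R : Set G)) (U : Subgroup G) (hUG : U ≤ G₁) (hUp : IsPGroup p U) :
    ((∃ x ∈ U, x ≠ 1 ∧ ∃ g ∈ G₁, g * x * g⁻¹ ∈ Q ⊓ centralizer (Q : Set G)) →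
        R ⊓ centralizer (U : Set G) = ⊥) ∧
      (IsElementaryAbelian p U → p ^ 2 ≤ Nat.card U →
        (∀ U₀ : Subgroup G, U₀ ≤ U → IsCoatom (U₀.subgroupOf U) →
          ∃ x ∈ U₀, x ≠ 1 ∧ ∃ g ∈ G₁, g * x * g⁻¹ ∈ Q ⊓ centralizer (Q : Set G)) → R = ⊥) := by
  have part1 : ∀ U : Subgroup G, (∃ x ∈ U, x ≠ 1 ∧ ∃ g ∈ G₁, g * x * g⁻¹ ∈ Q ⊓ centralizer (Q : Set G)) →
      R ⊓ centralizer (U : Set G) = ⊥ := by
    rintro U ⟨x, hxU, hx1, g, hg, hgx⟩
    have h1 := large_centralizer_trivial Q hQp hlarge G₁ hQG R hR hGR hx1 hg hgx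
    rw [eq_bot_iff, ← h1]
    refine inf_le_inf_left _ (Subgroup.centralizer_le ?_)
    intro y hy
    rw [Set.mem_singleton_iff.mp hy]
    exact hxU
  refine ⟨part1 U, fun hel hcard hmax => ?_⟩
  have hUcomm : ∀ a ∈ U, ∀ b ∈ U, a * b = b * a := by
    intro a ha b hb
    haveI := hel.1
    exact congrArg Subtype.val (mul_comm' (⟨a, ha⟩ : U) ⟨b, hb⟩)
  have hR' : ¬ p ∣ Nat.card R := fun h =>
    (Nat.Prime.coprime_iff_not_dvd (Fact.out : p.Prime)).mp hR.symm h
  have hgen := CfsgLib.Signal.gen_coprime (p := p) U R hUcomm hel.2 hR' (hUG.trans hGR)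
  rw [hgen, eq_bot_iff]
  refine iSup_le fun B => ?_
  obtain ⟨B, hBU, hBi⟩ := B
  have hcoat : ∃ U₀ : Subgroup G, U₀ ≤ U ∧ IsCoatom (U₀.subgroupOf U) ∧ U₀ ≤ B := by
    have hBi' : (B.subgroupOf U).index = B.relIndex U := rfl
    obtain ⟨n, hn⟩ := hUp.index (B.subgroupOf U)
    rw [hBi'] at hn
    have hp : p.Prime := Fact.out
    have hn1 : n ≤ 1 := by
      by_contra hn2
      have : p ^ 2 ≤ p ^ n := Nat.pow_le_pow_right hp.pos (by omega)
      have h3 : p < p ^ 2 := by nlinarith [hp.two_le]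
      omega
    interval_cases n
    · -- `B = U`: any maximal subgroup
      rw [pow_zero] at hn
      have hBU' : B = U := le_antisymm hBU (Subgroup.relIndex_eq_one.mp hn)
      have hne : (⊥ : Subgroup U) ≠ ⊤ := by
        intro h
        have h1 : Nat.card U = 1 := by
          have h2 := Subgroup.card_top (G := U)
          rw [← h, Subgroup.card_bot] at h2
          exact h2.symm
        have h3 : p ^ 2 ≥ 2 := by nlinarith [hp.two_le]
        omega
      obtain ⟨M, hM, -⟩ := (eq_top_or_exists_le_coatom (⊥ : Subgroup U)).resolve_left hne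
      refine ⟨M.map U.subtype, Subgroup.map_subtype_le _, ?_, ?_⟩
      · show IsCoatom ((M.map U.subtype).comap U.subtype)
        rwa [Subgroup.comap_map_eq_self_of_injective U.subtype_injective]
      · rw [hBU']; exact Subgroup.map_subtype_le _
    · refine ⟨B, hBU, ?_, le_rfl⟩
      rw [pow_one] at hn
      exact CfsgLib.FGS.isCoatom_of_index_p _ hn
  obtain ⟨U₀, hU₀, hc, hU₀B⟩ := hcoat
  have h1 := part1 U₀ (hmax U₀ hU₀ hc)
  rw [← h1]
  exact inf_le_inf_left _ (Subgroup.centralizer_le hU₀B)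

end CfsgLib.Local
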