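import Cfsg.Agent.Lib.Local.TransferZ
import Cfsg.Agent.Lib.SS.Misc
import Cfsg.Agent.Lib.FGS.IdxP

/-! Groups with Sylow `2`-subgroup `ℤ/2 × D₈` have a subgroup of index two. -/

set_option autoImplicit false

namespace CfsgLib.Local

open Cfsg Subgroup CfsgLib.Fusion DihedralGroup

abbrev W28 := Multiplicative (ZMod 2) × DihedralGroup 4

def aW28 : W28 := (Multiplicative.ofAdd 1, 1)
def zW28 : W28 := (1, r 2)

set_option maxRecDepth 100000 in
theorem W28_central : ∀ y : W28, (¬ ∀ x : W28, x * y = y * x) ∨ y ^ 2 ≠ 1 ∨ y = 1 ∨ y = zW28 ∨ y = aW28 ∨ y = aW28 * zW28 := by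
  decide

set_option maxRecDepth 100000 in
theorem W28_sq : ∀ x : W28, x ^ 2 = 1 ∨ x ^ 2 = zW28 := by decide

set_option maxRecDepth 100000 in
theorem W28_a_central : ∀ x : W28, x * aW28 = aW28 * x := by decide

set_option maxRecDepth 100000 in
theorem W28_z_central : ∀ x : W28, x * zW28 = zW28 * x := by decide

theorem W28_ofAdd_ne : Multiplicative.ofAdd (1 : ZMod 2) ≠ 1 := by decide

theorem W28_ne : aW28 ≠ 1 ∧ zW28 ≠ 1 ∧ aW28 ≠ zW28 := by decide
theorem W28_sq' : aW28 ^ 2 = 1 ∧ zW28 ^ 2 = 1 ∧ aW28 * zW28 = zW28 * aW28 := by decide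
theorem W28_z_sq : ((1, r 1) : W28) ^ 2 = zW28 := by decide

theorem W28_aut (τ : W28 ≃* W28) : τ zW28 = zW28 ∧ (τ aW28 = aW28 ∨ τ aW28 = aW28 * zW28) := by
  have hz : τ zW28 = zW28 := by
    have h1 : τ zW28 = (τ (1, r 1)) ^ 2 := by rw [← map_pow, W28_z_sq]
    rcases W28_sq (τ (1, r 1)) with h | h
    · rw [h, map_eq_one_iff τ τ.injective] at h1
      exact absurd h1 W28_ne.2.1
    · rw [h1, h]
  refine ⟨hz, ?_⟩
  have hc : ∀ x : W28, x * τ aW28 = τ aW28 * x := by
    intro x
    obtain ⟨w, rfl⟩ := τ.surjective x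
    rw [← map_mul, ← map_mul, W28_a_central]
  have hs : (τ aW28) ^ 2 = 1 := by rw [← map_pow, W28_sq'.1, map_one]
  rcases W28_central (τ aW28) with h | h | h | h | h | h
  · exact absurd hc h
  · exact absurd hs h
  · rw [map_eq_one_iff τ τ.injective] at h
    exact absurd h W28_ne.1
  · rw [← hz] at h
    exact absurd (τ.injective h) W28_ne.2.2
  · exact Or.inl h
  · exact Or.inr h

theorem W28_aut_sq (τ : W28 ≃* W28) : τ (τ aW28) = aW28 := by
  obtain ⟨hz, ha⟩ := W28_aut τ
  rcases ha with h | h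
  · rw [h, h]
  · rw [h, map_mul, h, hz, mul_assoc]
    have : zW28 * zW28 = 1 := by decide
    rw [this, mul_one]

variable {G : Type*} [Group G] [Finite G]

/-- A `2`-element normalizing a Sylow `2`-subgroup lies in it. -/
theorem mem_sylow_of_two_element (S : Sylow 2 G) {t : G} (ht : t ∈ normalizer ((S : Subgroup G) : Set G)) {k : ℕ}
    (hk : t ^ 2 ^ k = 1) : t ∈ (S : Subgroup G) := by
  haveI hp2 : Fact (Nat.Prime 2) := ⟨Nat.prime_two⟩
  have hz : IsPGroup 2 (zpowers t) := by
    rw [IsPGroup.iff_card, Nat.card_zpowers]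
    have := orderOf_dvd_of_pow_eq_one hk
    obtain ⟨m, -, hm⟩ := (Nat.dvd_prime_pow Nat.prime_two).mp this
    exact ⟨m, hm⟩
  have hS : IsPGroup 2 (zpowers t ⊔ (S : Subgroup G) : Subgroup G) :=
    IsPGroup.to_sup_of_normal_right' hz S.2 (by rw [zpowers_le]; exact ht)
  have := S.is_maximal' hS le_sup_right
  rw [← this]
  exact Subgroup.mem_sup_left (mem_zpowers t)

theorem index_two_of_residual (h : pResidual 2 G ≠ ⊤) : ∃ H : Subgroup G, H.index = 2 := by
  classical
  haveI hp2 : Fact (Nat.Prime 2) := ⟨Nat.prime_two⟩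
  haveI : (pResidual 2 G).Normal := CfsgLib.Tr.pResidual_normal 2 G
  have hp : IsPGroup 2 (G ⧸ pResidual 2 G) := CfsgLib.Tr.isPGroup_quotient_pResidual 2 le_rfl
  haveI : Nontrivial (G ⧸ pResidual 2 G) := QuotientGroup.nontrivial_iff.mpr h
  obtain ⟨M, hM⟩ := (eq_top_or_exists_le_coatom (⊥ : Subgroup (G ⧸ pResidual 2 G))).resolve_left bot_ne_top
  obtain ⟨-, hMi⟩ := CfsgLib.Solv.coatom_of_pgroup hp hM.1
  refine ⟨M.comap (QuotientGroup.mk' (pResidual 2 G)), ?_⟩
  rw [Subgroup.index_comap_of_surjective _ (QuotientGroup.mk'_surjective _), hMi]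

theorem index_two_of_W28 (S : Sylow 2 G) (e : ↥(S : Subgroup G) ≃* W28) : ∃ H : Subgroup G, H.index = 2 := by
  classical
  haveI hp2 : Fact (Nat.Prime 2) := ⟨Nat.prime_two⟩
  have hSp : IsPGroup 2 ↥(S : Subgroup G) := S.2
  set a₀ : ↥(S : Subgroup G) := e.symm aW28 with ha₀
  set z₀ : ↥(S : Subgroup G) := e.symm zW28 with hz₀
  have hcen : ∀ (w : W28), (∀ x : W28, x * w = w * x) → (e.symm w : G) ∈ centralizer ((S : Subgroup G) : Set G) := by
    intro w hw
    refine Subgroup.mem_centralizer_iff.mpr fun s hs => ?_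
    have h1 : (⟨s, hs⟩ : ↥(S : Subgroup G)) * e.symm w = e.symm w * ⟨s, hs⟩ := by
      apply e.injective
      rw [map_mul, map_mul, e.apply_symm_apply]
      exact hw _
    exact congrArg Subtype.val h1
  rcases residual_or_frattini_or_action S with h | h | h
  · exact index_two_of_residual h
  · -- `a₀` is not in the Frattini subgroup
    exfalso
    have ha : (a₀ : G) ∈ omegaOne 2 ((S : Subgroup G) ⊓ centralizer ((S : Subgroup G) : Set G)) := by
      refine Subgroup.subset_closure ⟨⟨a₀.2, hcen _ W28_a_central⟩, ?_⟩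
      have : a₀ ^ 2 = 1 := by rw [ha₀, ← map_pow, W28_sq'.1, map_one]
      exact congrArg Subtype.val this
    obtain ⟨x, hx, hxe⟩ := h ha
    have hxa : x = a₀ := Subtype.ext hxe
    have hx' : a₀ ∈ frattini ↥(S : Subgroup G) := by
      rw [hxa] at hx
      exact hx
    rw [CfsgLib.Solv.mem_frattini_iff] at hx'
    let ψ : ↥(S : Subgroup G) →* Multiplicative (ZMod 2) := (MonoidHom.fst _ _).comp e.toMonoidHom
    have hψ : Function.Surjective ψ := by
      intro y
      refine ⟨e.symm (y, 1), ?_⟩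
      simp [ψ]
    have hK : ψ.ker.index = 2 := by
      rw [Subgroup.index_ker, MonoidHom.range_eq_top.mpr hψ]
      simp
    have hco : IsCoatom ψ.ker := CfsgLib.FGS.isCoatom_of_index_p (p := 2) ψ.ker hK
    have := hx' _ hco
    rw [MonoidHom.mem_ker] at this
    have h2 : ψ a₀ = Multiplicative.ofAdd 1 := by
      simp [ψ, ha₀, aW28]
    rw [h2] at this
    exact W28_ofAdd_ne this
  · -- the normalizer centralizes
    exfalso
    obtain ⟨g, hg, y, hy, hne⟩ := h
    apply hne
    -- conjugation as an automorphism of `W28`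
    have hcj : ∀ (u : G) (hu : u ∈ normalizer ((S : Subgroup G) : Set G)), ∃ τ : W28 ≃* W28,
        ∀ w : W28, ((e.symm (τ w) : ↥(S : Subgroup G)) : G) = u * (e.symm w : ↥(S : Subgroup G)) * u⁻¹ := by
      intro u hu
      let σ : MulAut ↥(S : Subgroup G) := normalizerMonoidHom (S : Subgroup G) ⟨u, hu⟩
      refine ⟨e.symm.trans (σ.trans e), fun w => ?_⟩
      simp only [MulEquiv.trans_apply, MulEquiv.symm_apply_apply]
      rfl
    -- the odd part of an element of the normalizer centralizes `a₀`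
    have hz_fix : ∀ u ∈ normalizer ((S : Subgroup G) : Set G), u * (z₀ : G) * u⁻¹ = z₀ := by
      intro u hu
      obtain ⟨τ, hτ⟩ := hcj u hu
      rw [← hτ, (W28_aut τ).1]
    have ha_sq : ∀ u ∈ normalizer ((S : Subgroup G) : Set G), u ^ 2 * (a₀ : G) * (u ^ 2)⁻¹ = a₀ := by
      intro u hu
      obtain ⟨τ, hτ⟩ := hcj u hu
      have h1 := hτ (τ aW28)
      rw [W28_aut_sq, hτ] at h1
      rw [pow_two]
      calc u * u * (a₀ : G) * (u * u)⁻¹ = u * (u * (a₀ : G) * u⁻¹) * u⁻¹ := by group
        _ = _ := h1.symm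
    -- decomposition of `g`
    obtain ⟨t, u, htu, hc, ⟨k, hk⟩, huodd, ht, hu⟩ := CfsgLib.Tr.exists_pow_decomp 2 g
    have hgN : zpowers g ≤ normalizer ((S : Subgroup G) : Set G) := by rw [zpowers_le]; exact hg
    have htS := mem_sylow_of_two_element S (hgN ht) hk
    have huN := hgN hu
    have hua : u * (a₀ : G) = a₀ * u := by
      -- `u` is a power of `u ^ 2`
      have hoddo : Odd (orderOf u) := by
        rcases Nat.even_or_odd (orderOf u) with he | ho
        · exfalso
          have h7 := Nat.Coprime.eq_one_of_dvd huodd.symm (even_iff_two_dvd.mp he)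
          omega
        · exact ho
      obtain ⟨m, hm⟩ := hoddo
      have hum : u = (u ^ 2) ^ (m + 1) := by
        rw [← pow_mul]
        have : 2 * (m + 1) = orderOf u + 1 := by omega
        rw [this, pow_succ, pow_orderOf_eq_one, one_mul]
      have hc2 : Commute (u ^ 2) (a₀ : G) := by
        have := ha_sq u huN
        rw [mul_inv_eq_iff_eq_mul] at this
        exact this
      have := hc2.pow_left (m + 1)
      rw [← hum] at this
      exact this
    have huz : u * (z₀ : G) = z₀ * u := by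
      have := hz_fix u huN
      rwa [mul_inv_eq_iff_eq_mul] at this
    have hta : t * (a₀ : G) = a₀ * t := Subgroup.mem_centralizer_iff.mp (hcen _ W28_a_central) t htS
    have htz : t * (z₀ : G) = z₀ * t := Subgroup.mem_centralizer_iff.mp (hcen _ W28_z_central) t htS
    have hga : Commute g (a₀ : G) := by
      rw [← htu]
      exact Commute.mul_left hta hua
    have hgz : Commute g (z₀ : G) := by
      rw [← htu]
      exact Commute.mul_left htz huz
    have hle : omegaOne 2 ((S : Subgroup G) ⊓ centralizer ((S : Subgroup G) : Set G)) ≤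
        centralizer ({g} : Set G) := by
      refine (Subgroup.closure_le _).mpr ?_
      rintro x ⟨⟨hxS, hxC⟩, hx2⟩
      rw [SetLike.mem_coe, Subgroup.mem_centralizer_singleton_iff]
      set w : W28 := e ⟨x, hxS⟩ with hw
      have hxw : x = (e.symm w : ↥(S : Subgroup G)) := by
        rw [hw, e.symm_apply_apply]
      rcases W28_central w with h | h | h | h | h | h
      · exfalso
        apply h
        intro v
        obtain ⟨s, rfl⟩ := e.surjective v
        rw [hw, ← map_mul, ← map_mul]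
        congr 1
        exact Subtype.ext (Subgroup.mem_centralizer_iff.mp hxC s.1 s.2)
      · exfalso
        apply h
        rw [hw, ← map_pow]
        have : (⟨x, hxS⟩ : ↥(S : Subgroup G)) ^ 2 = 1 := Subtype.ext hx2
        rw [this, map_one]
      · rw [hxw, h]; simp
      · rw [hxw, h]
        exact hgz.eq.symm
      · rw [hxw, h]
        exact hga.eq.symm
      · rw [hxw, h, map_mul]
        exact ((hga.mul_right hgz).eq).symm
    have h3 := Subgroup.mem_centralizer_singleton_iff.mp (hle hy)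
    rw [← h3, mul_inv_cancel_right]

end CfsgLib.Local
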